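import Cfsg.Agent.FourPrimes.Frob
import Cfsg.Prelude.Def_Transfer
import Cfsg.Prelude.Def_OddOrderLocal
import Cfsg.Prelude.Def_Solvable
import Cfsg.Agent.Coprime.Generation
import Cfsg.Agent.Core.Hall
import Cfsg.Agent.Core.MinimalNormal

/-! Tools for the four primes theorem. -/

set_option autoImplicit false
set_option linter.unusedSectionVars false

namespace Cfsg.Agent.FourPrimes

open Cfsg Cfsg.Agent
open scoped Pointwise

variable {G : Type*} [Group G] [Finite G]

/-- An elementary abelian group of order `s²`. -/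
def Sq (s : ℕ) (E : Subgroup G) : Prop := IsElementaryAbelian s E ∧ Nat.card E = s ^ 2

/-- No three pairwise commuting elements of orders `p`, `q`, `r`. -/
def Tri (G : Type*) [Group G] (p q r : ℕ) : Prop :=
  ∀ a b c : G, orderOf a = p → orderOf b = q → orderOf c = r →
    Commute a b → Commute a c → Commute b c → False

theorem Tri.swap12 {p q r : ℕ} (h : Tri G p q r) : Tri G q p r :=
  fun a b c ha hb hc hab hac hbc => h b a c hb ha hc hab.symm hbc hac

theorem Tri.swap23 {p q r : ℕ} (h : Tri G p q r) : Tri G p r q :=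
  fun a b c ha hb hc hab hac hbc => h a c b ha hc hb hac hab hbc.symm

theorem Tri.rot {p q r : ℕ} (h : Tri G p q r) : Tri G q r p := h.swap12.swap23

theorem ea_orderOf {s : ℕ} (hs : s.Prime) {A : Subgroup G} (hA : IsElementaryAbelian s A) {a : G}
    (ha : a ∈ A) (h1 : a ≠ 1) : orderOf a = s := by
  haveI := Fact.mk hs
  exact orderOf_eq_prime (hA.2 a ha) h1

theorem ea_pgroup {s : ℕ} {A : Subgroup G} (hA : IsElementaryAbelian s A) : IsPGroup s A :=
  fun x => ⟨1, Subtype.ext (by simpa using hA.2 x x.2)⟩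

theorem ea_comm {s : ℕ} {A : Subgroup G} (hA : IsElementaryAbelian s A) {a b : G} (ha : a ∈ A)
    (hb : b ∈ A) : Commute a b :=
  congrArg Subtype.val (hA.1.1.1 ⟨a, ha⟩ ⟨b, hb⟩)

theorem ea_le {s : ℕ} {A B : Subgroup G} (hA : IsElementaryAbelian s A) (h : B ≤ A) :
    IsElementaryAbelian s B :=
  ⟨⟨⟨fun a b => Subtype.ext (ea_comm hA (h a.2) (h b.2))⟩⟩, fun a ha => hA.2 a (h ha)⟩

theorem ea_coprime {s p : ℕ} (hs : s.Prime) (hp : p.Prime) (hne : s ≠ p) {A N : Subgroup G}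
    (hA : IsElementaryAbelian s A) (hN : IsElementaryAbelian p N) :
    (Nat.card A).Coprime (Nat.card N) := by
  haveI := Fact.mk hs
  haveI := Fact.mk hp
  exact IsPGroup.coprime_card_of_ne s p hne _ _ (ea_pgroup hA) (ea_pgroup hN)

theorem sq_not_cyclic {s : ℕ} (hs : s.Prime) {E : Subgroup G} (hE : Sq s E) : ¬ IsCyclic E := by
  intro h
  haveI := h
  have h1 : Nat.card E ∣ s := by
    rw [← IsCyclic.exponent_eq_card]
    exact Monoid.exponent_dvd_of_forall_pow_eq_one fun x => Subtype.ext (by simpa using hE.1.2 x x.2)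
  rw [hE.2] at h1
  have h2 := Nat.le_of_dvd hs.pos h1
  nlinarith [hs.two_le]

theorem card_zpowers_prime {s : ℕ} {a : G} (ha : orderOf a = s) :
    Nat.card (Subgroup.zpowers a) = s := by rw [Nat.card_zpowers, ha]

theorem disjoint_zpowers {s : ℕ} (hs : s.Prime) {a b : G} (hb : orderOf b = s)
    (h : b ∉ Subgroup.zpowers a) : Disjoint (Subgroup.zpowers a) (Subgroup.zpowers b) := by
  rw [disjoint_iff_inf_le]
  intro x hx
  rw [Subgroup.mem_bot]
  by_contra hx1
  exact h (Subgroup.zpowers_le.2 hx.1 (mem_zpowers_of_prime hs hb hx.2 hx1))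

theorem mk_sq {s : ℕ} (hs : s.Prime) {a b : G} (ha : orderOf a = s) (hb : orderOf b = s)
    (hab : Commute a b) (h : b ∉ Subgroup.zpowers a) :
    Sq s (Subgroup.zpowers a ⊔ Subgroup.zpowers b) := by
  have hd := disjoint_zpowers hs hb h
  have hle : Subgroup.zpowers a ⊔ Subgroup.zpowers b = Subgroup.closure {a, b} := by
    rw [Subgroup.zpowers_eq_closure, Subgroup.zpowers_eq_closure, ← Subgroup.closure_union,
      Set.singleton_union]
  have hc : IsMulCommutative ↥(Subgroup.zpowers a ⊔ Subgroup.zpowers b) := by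
    rw [hle]
    refine Subgroup.isMulCommutative_closure ?_
    rintro x (rfl | rfl) y (rfl | rfl)
    exacts [rfl, hab.eq, hab.symm.eq, rfl]
  have hnorm : Subgroup.zpowers b ≤ Subgroup.centralizer (Subgroup.zpowers a : Set G) := by
    rw [Subgroup.zpowers_le, Subgroup.mem_centralizer_iff]
    intro y hy
    obtain ⟨i, rfl⟩ := Subgroup.mem_zpowers_iff.1 hy
    exact (hab.zpow_left i).eq
  refine ⟨⟨hc, fun x hx => ?_⟩, ?_⟩
  · rw [hle] at hx
    refine Subgroup.closure_induction (p := fun x _ => x ^ s = 1) ?_ (one_pow s) ?_ ?_ hx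
    · rintro y (rfl | rfl)
      · exact ha ▸ pow_orderOf_eq_one _
      · exact hb ▸ pow_orderOf_eq_one _
    · intro y z hy hz e1 e2
      rw [← hle] at hy hz
      have : Commute y z := congrArg Subtype.val (hc.1.1 ⟨y, hy⟩ ⟨z, hz⟩)
      rw [this.mul_pow, e1, e2, one_mul]
    · intro y _ e; rw [inv_pow, e, inv_one]
  · have hnn : Subgroup.zpowers b ≤ Subgroup.normalizer (Subgroup.zpowers a : Set G) :=
      hnorm.trans (Subgroup.centralizer_le_normalizer _)
    have h1 : ((Subgroup.zpowers a ⊔ Subgroup.zpowers b : Subgroup G) : Set G) =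
        (Subgroup.zpowers a : Set G) * (Subgroup.zpowers b : Set G) :=
      Subgroup.coe_mul_of_right_le_normalizer_left _ _ hnn
    have h2 : Nat.card ↥((Subgroup.zpowers a : Set G) * (Subgroup.zpowers b : Set G)) = s * s := by
      rw [← card_zpowers_prime ha]
      conv_rhs => arg 2; rw [card_zpowers_prime ha, ← card_zpowers_prime hb]
      rw [← Nat.card_prod]
      exact Nat.card_congr (Equiv.ofBijective (fun x : Subgroup.zpowers a × Subgroup.zpowers b =>
        (⟨(x.1 : G) * x.2, Set.mul_mem_mul x.1.2 x.2.2⟩ : ↥((Subgroup.zpowers a : Set G) * (Subgroup.zpowers b : Set G))))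
        ⟨fun x y e => Subgroup.mul_injective_of_disjoint hd (congrArg Subtype.val e),
          fun ⟨_, u, hu, v, hv, e⟩ => ⟨(⟨u, hu⟩, ⟨v, hv⟩), Subtype.ext e⟩⟩).symm
    rw [pow_two, ← h2, ← h1]
    rfl

/-- In an elementary abelian group of order `s²`, outside any cyclic subgroup there is an element. -/
theorem sq_exists_not_mem {s : ℕ} (hs : s.Prime) {E : Subgroup G} (hE : Sq s E) (z : G) :
    ∃ b ∈ E, orderOf b = s ∧ b ∉ Subgroup.zpowers z := by
  by_contra! hcon
  have hle : E ≤ Subgroup.zpowers z := fun x hx => by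
    rcases eq_or_ne x 1 with rfl | h1
    · exact one_mem _
    · exact hcon x hx (ea_orderOf hs hE.1 hx h1)
  exact sq_not_cyclic hs hE (isCyclic_of_injective (Subgroup.inclusion hle)
    (Subgroup.inclusion_injective _))

/-- The elements of `E` satisfying a proper closed condition containing `c` lie in `⟨c⟩`. -/
theorem sq_kernel {s : ℕ} (hs : s.Prime) {E C : Subgroup G} (hE : Sq s E) (hne : ¬ E ≤ C) {c : G}
    (hc : c ∈ E) (hc1 : c ≠ 1) (hcC : c ∈ C) {y : G} (hy : y ∈ E) (hyC : y ∈ C) :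
    y ∈ Subgroup.zpowers c := by
  have hle : Subgroup.zpowers c ≤ E ⊓ C := Subgroup.zpowers_le.2 ⟨hc, hcC⟩
  have hd : Nat.card ↥(E ⊓ C) ∣ s ^ 2 := hE.2 ▸ Subgroup.card_dvd_of_le inf_le_left
  obtain ⟨i, hi, hic⟩ := (Nat.dvd_prime_pow hs).1 hd
  have hlt : i ≤ 1 := by
    by_contra h
    have hi2 : i = 2 := by omega
    have := Subgroup.eq_of_le_of_card_ge (inf_le_left : E ⊓ C ≤ E) (by rw [hic, hi2, hE.2])
    exact hne (this ▸ inf_le_right)
  have := Subgroup.eq_of_le_of_card_ge hle (by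
    rw [card_zpowers_prime (ea_orderOf hs hE.1 hc hc1), hic]
    calc s ^ i ≤ s ^ 1 := Nat.pow_le_pow_right hs.pos hlt
      _ = s := pow_one s)
  rw [this]; exact ⟨hy, hyC⟩

theorem centralizer_singleton_mem {x n : G} : n ∈ Subgroup.centralizer {x} ↔ Commute x n := by
  rw [Subgroup.mem_centralizer_singleton_iff]; exact ⟨Eq.symm, Eq.symm⟩

/-- The centraliser of `e` in `N` is normalised by elements commuting with `e`. -/
theorem norm_centralizer {N : Subgroup G} {e g : G} (hg : g ∈ Subgroup.normalizer (N : Set G))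
    (hge : Commute g e) :
    g ∈ Subgroup.normalizer ((N ⊓ Subgroup.centralizer {e} : Subgroup G) : Set G) := by
  rw [Subgroup.mem_normalizer_iff]
  intro n
  rw [Subgroup.mem_inf, Subgroup.mem_inf, centralizer_singleton_mem, centralizer_singleton_mem,
    ← Subgroup.mem_normalizer_iff.1 hg n]
  refine and_congr_right fun _ => ⟨fun h => ?_, fun h => ?_⟩
  · exact (hge.symm.mul_right h).mul_right hge.symm.inv_right
  · have := (hge.symm.inv_right.mul_right h).mul_right hge.symm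
    simpa [mul_assoc] using this

theorem Fx.sub {N : Subgroup G} {e : G} (h : Fx N e) :
    N ⊓ Subgroup.centralizer {e} ≠ ⊥ := by
  obtain ⟨n, hn, h1, h2⟩ := h
  intro hb
  exact h1 (Subgroup.mem_bot.1 (hb ▸ ⟨hn, centralizer_singleton_mem.2 h2⟩))

/-- An `E` of order `s²` acting coprimely: some nontrivial element fixes a nontrivial element. -/
theorem fx_sq {p s : ℕ} (hp : p.Prime) (hs : s.Prime) (hne : s ≠ p) {N E : Subgroup G}
    (hN : IsElementaryAbelian p N) (hN1 : N ≠ ⊥) (hE : Sq s E)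
    (hEN : E ≤ Subgroup.normalizer (N : Set G)) : ∃ e ∈ E, orderOf e = s ∧ Fx N e := by
  by_contra! hcon
  haveI := hE.1.1
  have := Coprime.eq_centralizerJoin (sq_not_cyclic hs hE) hEN (ea_coprime hs hp hne hE.1 hN)
  refine hN1 (le_bot_iff.1 (this ▸ iSup_le fun e n hn => Subgroup.mem_bot.2 ?_))
  exact eq_one_of_not_fx (hcon e e.2.1 (ea_orderOf hs hE.1 e.2.1 e.2.2)) hn.1
    (centralizer_singleton_mem.1 hn.2)

/-- Two commuting groups of orders `s²` and `t²` acting on a `p`-group give a triple. -/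
theorem sq_sq_false {p s t : ℕ} (hp : p.Prime) (hs : s.Prime) (ht : t.Prime) (hsp : s ≠ p)
    (htp : t ≠ p) (hT : Tri G p s t) {N E D : Subgroup G} (hN : IsElementaryAbelian p N)
    (hN1 : N ≠ ⊥) (hE : Sq s E) (hD : Sq t D) (hEN : E ≤ Subgroup.normalizer (N : Set G))
    (hDN : D ≤ Subgroup.normalizer (N : Set G)) (hED : ∀ e ∈ E, ∀ d ∈ D, Commute e d) : False := by
  obtain ⟨e, he, heo, hef⟩ := fx_sq hp hs hsp hN hN1 hE hEN
  obtain ⟨d, hd, hdo, n, hn, hn1, hdn⟩ := fx_sq hp ht htp (ea_le hN inf_le_left) hef.sub hD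
    (fun d hd => norm_centralizer (hDN hd) (hED e he d hd).symm)
  exact hT n e d (ea_orderOf hp hN hn.1 hn1) heo hdo
    (centralizer_singleton_mem.1 hn.2).symm hdn.symm (hED e he d hd)

/-- An element normalising `⟨z⟩` of order coprime to `r - 1` commutes with `z`. -/
theorem commute_of_normalizes {r n : ℕ} (hr : r.Prime) {z g : G} (hz : orderOf z = r)
    (hg : g ∈ Subgroup.normalizer (Subgroup.zpowers z : Set G)) (hn : g ^ n = 1)
    (hcop : n.Coprime (r - 1)) : Commute g z := by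
  haveI := Fact.mk hr
  have h1 : g * z * g⁻¹ ∈ Subgroup.zpowers z :=
    (Subgroup.mem_normalizer_iff.1 hg z).1 (Subgroup.mem_zpowers z)
  classical
  obtain ⟨i, -, hi⟩ := Finset.mem_image.1 (mem_zpowers_iff_mem_range_orderOf.1 h1)
  have hk : ∀ k : ℕ, g ^ k * z * (g ^ k)⁻¹ = z ^ (i ^ k) := by
    intro k
    induction k with
    | zero => simp
    | succ k ih =>
      calc g ^ (k + 1) * z * (g ^ (k + 1))⁻¹ = g * (g ^ k * z * (g ^ k)⁻¹) * g⁻¹ := by
            rw [pow_succ']; group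
        _ = (g * z * g⁻¹) ^ (i ^ k) := by rw [ih, conj_pow]
        _ = z ^ (i ^ (k + 1)) := by rw [← hi, ← pow_mul, pow_succ']
  have hmod : ∀ k : ℕ, z ^ k = z → (k : ZMod r) = 1 := by
    intro k hk
    have : k ≡ 1 [MOD r] := by
      rw [← hz, ← pow_eq_pow_iff_modEq, pow_one, hk]
    simpa using (ZMod.natCast_eq_natCast_iff _ _ _).2 this
  have hin : ((i : ZMod r)) ^ n = 1 := by
    rw [← Nat.cast_pow]
    refine hmod _ ?_
    rw [← hk n, hn]; simp
  have hi0 : (i : ZMod r) ≠ 0 := by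
    intro h0
    have hzero : z ^ i = 1 := by
      rw [← orderOf_dvd_iff_pow_eq_one, hz, ← ZMod.natCast_eq_zero_iff]; exact h0
    rw [hzero] at hi
    have hz1 : z = 1 := by
      have h := hi.symm
      rwa [conj_eq_one_iff] at h
    rw [hz1, orderOf_one] at hz
    exact hr.one_lt.ne hz
  have hu : (i : ZMod r) = 1 := by
    have h2 := pow_gcd_eq_one.2 ⟨hin, ZMod.pow_card_sub_one_eq_one hi0⟩
    rwa [hcop.gcd_eq_one, pow_one] at h2
  have hz' : z ^ i = z := by
    have : i ≡ 1 [MOD r] := (ZMod.natCast_eq_natCast_iff _ _ _).1 (by simpa using hu)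
    rw [← hz] at this
    simpa using pow_eq_pow_iff_modEq.2 this
  rw [hz'] at hi
  exact mul_inv_eq_iff_eq_mul.1 hi.symm

theorem dvd_sub_one_of_not_commute {r s : ℕ} (hr : r.Prime) (hs : s.Prime) {z g : G}
    (hz : orderOf z = r) (hg : g ∈ Subgroup.normalizer (Subgroup.zpowers z : Set G))
    (hgo : orderOf g = s) (hnc : ¬ Commute g z) : s ∣ r - 1 := by
  by_contra h
  exact hnc (commute_of_normalizes hr hz hg (hgo ▸ pow_orderOf_eq_one g)
    (hs.coprime_iff_not_dvd.2 h))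

theorem coprime_sub_one_self {r : ℕ} (hr : r.Prime) : r.Coprime (r - 1) :=
  hr.coprime_iff_not_dvd.2 fun h => by
    have := Nat.le_of_dvd (by have := hr.two_le; omega) h
    have := hr.two_le
    omega

theorem commute_of_lt {r s : ℕ} (hr : r.Prime) (hs : s.Prime) (hlt : r ≤ s) {z g : G}
    (hz : orderOf z = r) (hg : g ∈ Subgroup.normalizer (Subgroup.zpowers z : Set G))
    (hgo : orderOf g = s) : Commute g z := by
  refine commute_of_normalizes hr hz hg (hgo ▸ pow_orderOf_eq_one g) (hs.coprime_iff_not_dvd.2 ?_)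
  intro h
  have := Nat.le_of_dvd (by have := hr.two_le; omega) h
  have := hr.two_le
  omega

/-- The commutators of an abelian coprimely acted subgroup form a fixed point free part. -/
theorem moved_part {s t : ℕ} (ht : t.Prime) (hs : s.Prime) (hne : s ≠ t) {A : Subgroup G}
    (hA : IsElementaryAbelian s A) {c : G} (hc : orderOf c = t)
    (hcA : c ∈ Subgroup.normalizer (A : Set G)) (hnc : ∃ a ∈ A, ¬ Commute c a) :
    ∃ B : Subgroup G, B ≤ A ∧ B ≠ ⊥ ∧ c ∈ Subgroup.normalizer (B : Set G) ∧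
      ∀ b ∈ B, Commute c b → b = 1 := by
  have hmem : ∀ a ∈ A, c * a * c⁻¹ * a⁻¹ ∈ A := fun a ha =>
    A.mul_mem ((Subgroup.mem_normalizer_iff.1 hcA a).1 ha) (A.inv_mem ha)
  let B : Subgroup G :=
    { carrier := {y | ∃ a ∈ A, c * a * c⁻¹ * a⁻¹ = y}
      one_mem' := ⟨1, A.one_mem, by simp⟩
      mul_mem' := by
        rintro _ _ ⟨a, ha, rfl⟩ ⟨b, hb, rfl⟩
        refine ⟨a * b, A.mul_mem ha hb, ?_⟩
        have h1 : Commute a⁻¹ (c * b * c⁻¹) :=
          ea_comm hA (A.inv_mem ha) ((Subgroup.mem_normalizer_iff.1 hcA b).1 hb)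
        have h2 : Commute a⁻¹ b⁻¹ := ea_comm hA (A.inv_mem ha) (A.inv_mem hb)
        calc c * (a * b) * c⁻¹ * (a * b)⁻¹ = (c * a * c⁻¹) * (c * b * c⁻¹) * (b⁻¹ * a⁻¹) := by group
          _ = (c * a * c⁻¹) * ((c * b * c⁻¹) * a⁻¹) * b⁻¹ := by rw [← h2.eq]; group
          _ = (c * a * c⁻¹) * (a⁻¹ * (c * b * c⁻¹)) * b⁻¹ := by rw [h1.eq]
          _ = _ := by group
      inv_mem' := by
        rintro _ ⟨a, ha, rfl⟩
        refine ⟨a⁻¹, A.inv_mem ha, ?_⟩
        have h1 : Commute a (c * a⁻¹ * c⁻¹) :=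
          ea_comm hA ha ((Subgroup.mem_normalizer_iff.1 hcA _).1 (A.inv_mem ha))
        calc c * a⁻¹ * c⁻¹ * a⁻¹⁻¹ = (c * a⁻¹ * c⁻¹) * a := by group
          _ = a * (c * a⁻¹ * c⁻¹) := h1.eq.symm
          _ = _ := by group }
  have hBA : B ≤ A := by rintro _ ⟨a, ha, rfl⟩; exact hmem a ha
  refine ⟨B, hBA, ?_, ?_, ?_⟩
  · obtain ⟨a, ha, h⟩ := hnc
    intro hb
    refine h (mul_inv_eq_iff_eq_mul.1 ?_)
    have : c * a * c⁻¹ * a⁻¹ ∈ B := ⟨a, ha, rfl⟩
    rw [hb, Subgroup.mem_bot, mul_inv_eq_one] at this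
    exact this
  · refine Coprime.mem_normalizer_of_conj_mem ?_
    rintro _ ⟨a, ha, rfl⟩
    exact ⟨c * a * c⁻¹, (Subgroup.mem_normalizer_iff.1 hcA a).1 ha, by group⟩
  · rintro y hyB hy
    obtain ⟨a, ha, rfl⟩ := hyB
    set y := c * a * c⁻¹ * a⁻¹ with hy'
    have hk : ∀ k : ℕ, c ^ k * a * (c ^ k)⁻¹ = y ^ k * a := by
      intro k
      induction k with
      | zero => simp
      | succ k ih =>
        calc c ^ (k + 1) * a * (c ^ (k + 1))⁻¹ = c * (c ^ k * a * (c ^ k)⁻¹) * c⁻¹ := by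
              rw [pow_succ']; group
          _ = (c * y ^ k * c⁻¹) * (c * a * c⁻¹) := by rw [ih]; group
          _ = y ^ k * (y * a) := by
              rw [(hy.pow_right k).eq, hy']; group
          _ = _ := by rw [pow_succ]; group
    have h1 := hk t
    rw [show c ^ t = 1 from hc ▸ pow_orderOf_eq_one c, one_mul, inv_one, mul_one] at h1
    have h2 : y ^ t = 1 := mul_eq_right.1 h1.symm
    by_contra hy1
    have := ea_orderOf hs hA (hBA ⟨a, ha, rfl⟩) hy1
    have h3 := orderOf_dvd_of_pow_eq_one h2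
    rw [this] at h3
    exact hne ((Nat.prime_dvd_prime_iff_eq hs ht).1 h3)

/-- A nontrivial normalised subgroup contains a normalised elementary abelian subgroup. -/
theorem exists_ea [Group.IsSolvable G] {H C : Subgroup G} (hC : C ≤ H)
    (hn : H ≤ Subgroup.normalizer (C : Set G)) (h1 : C ≠ ⊥) :
    ∃ s : ℕ, s.Prime ∧ s ∣ Nat.card H ∧ ∃ A : Subgroup G, A ≤ C ∧ A ≠ ⊥ ∧
      IsElementaryAbelian s A ∧ H ≤ Subgroup.normalizer (A : Set G) := by
  haveI : (C.subgroupOf H).Normal := (Subgroup.normal_subgroupOf_iff_le_normalizer hC).2 hn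
  have h1' : C.subgroupOf H ≠ ⊥ := by
    rw [Ne, Subgroup.subgroupOf_eq_bot]
    exact fun hd => h1 (Disjoint.eq_bot_of_le hd hC)
  obtain ⟨M, hM, hMC⟩ := Core.exists_isMinNormal_le inferInstance h1'
  obtain ⟨hMc, s, hs, hMs, -⟩ := hM.elementaryAbelian inferInstance
  haveI := hM.1
  have hne : M.map H.subtype ≠ ⊥ := by
    rw [Ne, Subgroup.map_eq_bot_iff_of_injective _ H.subtype_injective]; exact hM.2.1
  have hEA : IsElementaryAbelian s (M.map H.subtype) := by
    refine ⟨⟨⟨?_⟩⟩, ?_⟩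
    · rintro ⟨_, a, ha, rfl⟩ ⟨_, b, hb, rfl⟩
      exact Subtype.ext (congrArg Subtype.val (congrArg Subtype.val (hMc.1.1 ⟨a, ha⟩ ⟨b, hb⟩)) :)
    · rintro _ ⟨a, ha, rfl⟩
      rw [← map_pow, hMs a ha, map_one]
  refine ⟨s, hs, ?_, M.map H.subtype, ?_, hne, hEA, ?_⟩
  · obtain ⟨a, ha, ha1⟩ := (Subgroup.bot_or_exists_ne_one _).resolve_left hne
    rw [← ea_orderOf hs hEA ha ha1]
    exact Subgroup.orderOf_dvd_natCard H (Subgroup.map_subtype_le _ ha)
  · rintro _ ⟨a, ha, rfl⟩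
    exact hMC ha
  · intro g hg
    refine Coprime.mem_normalizer_of_conj_mem ?_
    rintro _ ⟨a, ha, rfl⟩
    exact ⟨⟨g, hg⟩ * a * ⟨g, hg⟩⁻¹, hM.1.conj_mem a ha _, by simp⟩

/-- A Hall subgroup of `H` covering given subgroups. -/
theorem exists_hall [Group.IsSolvable G] (H : Subgroup G) (π : Set ℕ) :
    ∃ K : Subgroup G, K ≤ H ∧ (∀ s, s.Prime → s ∣ Nat.card K → s ∈ π) ∧
      ∀ L : Subgroup G, L ≤ H → (∀ s, s.Prime → s ∣ Nat.card L → s ∈ π) →
        ∃ h ∈ H, L.map (MulAut.conj h).toMonoidHom ≤ K := by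
  obtain ⟨K, hK⟩ := Core.exists_isPiHall_of_isSolvable (G := H) π
  refine ⟨K.map H.subtype, Subgroup.map_subtype_le _, fun s hs hd => ?_, fun L hL hπ => ?_⟩
  · rw [Subgroup.card_map_of_injective H.subtype_injective] at hd
    exact hK.1 s hs hd
  · have hc : Core.IsPiNat π (Nat.card (L.subgroupOf H)) := by
      rw [Nat.card_congr (Subgroup.subgroupOfEquivOfLe hL).toEquiv]; exact hπ
    obtain ⟨h, hh⟩ := Core.exists_le_conj_smul_of_isPiHall Core.isPiSeparable_of_isSolvable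
      Core.hallSolvable_of_isSolvable hK hc
    refine ⟨(h⁻¹ : H), (h⁻¹).2, ?_⟩
    rintro _ ⟨x, hx, rfl⟩
    obtain ⟨y, hy, hxy⟩ := Subgroup.mem_map.1 (hh (show (⟨x, hL hx⟩ : H) ∈ L.subgroupOf H from hx))
    refine ⟨y, hy, ?_⟩
    have e := congrArg Subtype.val hxy
    simp [MulAut.conj_apply] at e ⊢
    rw [← e]; group

theorem conj_sq {s : ℕ} {E : Subgroup G} (hE : Sq s E) (h : G) :
    Sq s (E.map (MulAut.conj h).toMonoidHom) := by
  refine ⟨⟨⟨⟨?_⟩⟩, ?_⟩, ?_⟩
  · rintro ⟨_, a, ha, rfl⟩ ⟨_, b, hb, rfl⟩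
    exact Subtype.ext (show (MulAut.conj h).toMonoidHom a * (MulAut.conj h).toMonoidHom b =
        (MulAut.conj h).toMonoidHom b * (MulAut.conj h).toMonoidHom a by
      rw [← map_mul, ← map_mul, (ea_comm hE.1 ha hb).eq])
  · rintro _ ⟨a, ha, rfl⟩
    rw [← map_pow, hE.1.2 a ha, map_one]
  · rw [Subgroup.card_map_of_injective (MulEquiv.injective _), hE.2]

theorem sq_primes {s : ℕ} (hs : s.Prime) {E : Subgroup G} (hE : Sq s E) :
    ∀ l, l.Prime → l ∣ Nat.card E → l = s := fun l hl hd => by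
  rw [hE.2] at hd
  exact (Nat.prime_dvd_prime_iff_eq hl hs).1 (hl.dvd_of_dvd_pow hd)

theorem exists_sq_hall [Group.IsSolvable G] {H K : Subgroup G} {π : Set ℕ}
    (hK : ∀ L : Subgroup G, L ≤ H → (∀ s, s.Prime → s ∣ Nat.card L → s ∈ π) →
        ∃ h ∈ H, L.map (MulAut.conj h).toMonoidHom ≤ K)
    {s : ℕ} (hs : s.Prime) (hsπ : s ∈ π) (hE : ∃ E ≤ H, Sq s E) : ∃ E ≤ K, Sq s E := by
  obtain ⟨E, hEH, hE⟩ := hE
  obtain ⟨h, -, hle⟩ := hK E hEH fun l hl hd => sq_primes hs hE l hl hd ▸ hsπ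
  exact ⟨_, hle, conj_sq hE h⟩

end Cfsg.Agent.FourPrimes
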