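import Cfsg.Agent.FourPrimes.Cores

/-! Elements centralising complementary cores commute. -/

set_option autoImplicit false
set_option linter.unusedSectionVars false
set_option linter.style.haveILetI false

namespace Cfsg.Agent.FourPrimes

open Cfsg Cfsg.Agent

variable {G : Type*} [Group G] [Finite G]

theorem eq_one_of_coprime_pow {x : G} {m n : ℕ} (hm : x ^ m = 1) (hn : x ^ n = 1)
    (h : m.Coprime n) : x = 1 := by
  have := pow_gcd_eq_one.2 ⟨hm, hn⟩
  rwa [h.gcd_eq_one, pow_one] at this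

theorem core_eq_bot_of_not_dvd {l : ℕ} (hl : l.Prime) {H : Subgroup G} (h : ¬ l ∣ Nat.card H) :
    core l H = ⊥ := by
  rw [Subgroup.eq_bot_iff_forall]
  intro x hx
  obtain ⟨k, hk⟩ := core_orderOf hl hx
  rcases k with _ | k
  · exact orderOf_eq_one_iff.1 (by simpa using hk)
  · exact absurd ((dvd_pow_self l k.succ_ne_zero).trans
      (hk ▸ Subgroup.orderOf_dvd_natCard H (core_le l H hx))) h

theorem commute_of_cores [Group.IsSolvable G] {H : Subgroup G} {u v w : ℕ} (hu : u.Prime)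
    (hv : v.Prime) (hw : w.Prime) (huv : u ≠ v) (huw : u ≠ w)
    (honly : ∀ l, l.Prime → l ≠ u → l ≠ v → core l H = ⊥) {b c : G} (hbH : b ∈ H) (hcH : c ∈ H)
    (hb : orderOf b = u) (hc : orderOf c = w) (hbv : ∀ x ∈ core v H, Commute b x)
    (hcu : ∀ x ∈ core u H, Commute c x) : Commute b c := by
  haveI := Fact.mk hu
  set d := b * c * b⁻¹ * c⁻¹ with hd
  have hdH : d ∈ H := H.mul_mem (H.mul_mem (H.mul_mem hbH hcH) (H.inv_mem hbH)) (H.inv_mem hcH)
  have hnu := norm_core u H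
  have hnv := norm_core v H
  have hdu : ∀ x ∈ core u H, Commute d x := by
    intro x hx
    have hx' : b⁻¹ * x * b ∈ core u H := (Subgroup.mem_normalizer_iff''.1 (hnu hbH) x).1 hx
    have e1 : c⁻¹ * x * c = x := by rw [mul_assoc, ← (hcu x hx).eq, inv_mul_cancel_left]
    have e2 : c * (b⁻¹ * x * b) * c⁻¹ = b⁻¹ * x * b := mul_inv_eq_iff_eq_mul.2 (hcu _ hx').eq
    refine mul_inv_eq_iff_eq_mul.1 ?_
    calc d * x * d⁻¹ = b * (c * (b⁻¹ * (c⁻¹ * x * c) * b) * c⁻¹) * b⁻¹ := by rw [hd]; group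
      _ = x := by rw [e1, e2]; group
  have hdv : ∀ x ∈ core v H, Commute d x := by
    intro x hx
    have hx' : c⁻¹ * x * c ∈ core v H := (Subgroup.mem_normalizer_iff''.1 (hnv hcH) x).1 hx
    have e1 : b⁻¹ * (c⁻¹ * x * c) * b = c⁻¹ * x * c := by
      rw [mul_assoc, ← (hbv _ hx').eq, inv_mul_cancel_left]
    have e2 : b * x * b⁻¹ = x := mul_inv_eq_iff_eq_mul.2 (hbv x hx).eq
    refine mul_inv_eq_iff_eq_mul.1 ?_
    calc d * x * d⁻¹ = b * (c * (b⁻¹ * (c⁻¹ * x * c) * b) * c⁻¹) * b⁻¹ := by rw [hd]; group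
      _ = b * x * b⁻¹ := by rw [e1]; group
      _ = x := e2
  obtain ⟨x, hx, y, hy, hxy⟩ := mem_sup_core hu hv honly hdH hdu hdv
  have hyb : Commute b y := hbv y hy
  have hxy' : Commute x y := core_commute hu hv huv hx hy
  have hcbc : c * b * c⁻¹ = x⁻¹ * b * y⁻¹ := by
    have e : c * b * c⁻¹ = d⁻¹ * b := by rw [hd]; group
    rw [e, hxy, mul_inv_rev, mul_assoc, mul_assoc, ← (hxy'.inv_left.inv_right).left_comm,
      (hyb.symm.inv_left).eq]
  -- the `v`-part is trivial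
  have hPg : IsPGroup u ↥(core u H ⊔ Subgroup.zpowers b) :=
    IsPGroup.to_sup_of_normal_left' (core_pgroup u H) (IsPGroup.of_card (n := 1)
      (by rw [pow_one, Nat.card_zpowers, hb])) (Subgroup.zpowers_le.2 (hnu hbH))
  obtain ⟨k, hk⟩ := hPg ⟨x⁻¹ * b, Subgroup.mul_mem _ (Subgroup.mem_sup_left (Subgroup.inv_mem _ hx))
    (Subgroup.mem_sup_right (Subgroup.mem_zpowers b))⟩
  have hk' : (x⁻¹ * b) ^ u ^ k = 1 := congrArg Subtype.val hk
  have hcomm : Commute (x⁻¹ * b) y⁻¹ := (hxy'.inv_left.inv_right).mul_left hyb.inv_right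
  have hy1 : y = 1 := by
    have h1 : (c * b * c⁻¹) ^ u ^ (k + 1) = 1 := by
      rw [conj_pow, pow_succ', pow_mul, show b ^ u = 1 from hb ▸ pow_orderOf_eq_one b, one_pow]
      group
    rw [hcbc, hcomm.mul_pow, pow_succ, pow_mul, hk', one_pow, one_mul, inv_pow, inv_eq_one,
      ← pow_succ] at h1
    obtain ⟨m, hm⟩ := core_orderOf hv hy
    exact eq_one_of_coprime_pow h1 (hm ▸ pow_orderOf_eq_one y)
      (Nat.Coprime.pow _ _ ((Nat.coprime_primes hu hv).2 huv))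
  rw [hy1, inv_one, mul_one] at hcbc
  have hcx : Commute c x⁻¹ := (hcu x hx).inv_right
  have hiter : ∀ m : ℕ, c ^ m * b * (c ^ m)⁻¹ = x⁻¹ ^ m * b := by
    intro m
    induction m with
    | zero => simp
    | succ m ih =>
      calc c ^ (m + 1) * b * (c ^ (m + 1))⁻¹ = c * (c ^ m * b * (c ^ m)⁻¹) * c⁻¹ := by
            rw [pow_succ']; group
        _ = c * x⁻¹ ^ m * c⁻¹ * (c * b * c⁻¹) := by rw [ih]; group
        _ = _ := by rw [(hcx.pow_right m).eq, hcbc, pow_succ]; group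
  have h2 := hiter w
  rw [show c ^ w = 1 from hc ▸ pow_orderOf_eq_one c, one_mul, inv_one, mul_one] at h2
  have h3 : x⁻¹ ^ w = 1 := mul_eq_right.1 h2.symm
  obtain ⟨m, hm⟩ := core_orderOf hu hx
  have hx1 : x⁻¹ = 1 := eq_one_of_coprime_pow h3
    (by rw [inv_pow, inv_eq_one, ← hm]; exact pow_orderOf_eq_one x)
    (Nat.Coprime.pow_right _ ((Nat.coprime_primes hw hu).2 huw.symm))
  rw [hx1, one_mul, mul_inv_eq_iff_eq_mul] at hcbc
  exact (hcbc.symm : b * c = c * b)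

theorem ea_zpowers {s : ℕ} {z : G} (hz : orderOf z = s) :
    IsElementaryAbelian s (Subgroup.zpowers z) := by
  refine ⟨inferInstance, fun a ha => ?_⟩
  obtain ⟨i, rfl⟩ := Subgroup.mem_zpowers_iff.1 ha
  rw [← zpow_natCast, ← zpow_mul, mul_comm, zpow_mul, zpow_natCast, ← hz, pow_orderOf_eq_one,
    one_zpow]

end Cfsg.Agent.FourPrimes
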