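import Cfsg.Agent.FourPrimes.Commutes

/-! Two commuting modules over a `{r, t}`-group. -/

set_option autoImplicit false
set_option linter.unusedSectionVars false
set_option linter.style.haveILetI false

namespace Cfsg.Agent.FourPrimes

open Cfsg Cfsg.Agent

variable {G : Type*} [Group G] [Finite G]

/-- A `{r, t}`-group `K` acting on commuting `N`, `Q`. -/
structure Pair (p q r t : ℕ) (N Q K : Subgroup G) : Prop where
  hp : p.Prime
  hq : q.Prime
  hr : r.Prime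
  ht : t.Prime
  rp : r ≠ p
  tp : t ≠ p
  rq : r ≠ q
  tq : t ≠ q
  rt : r ≠ t
  hN : IsElementaryAbelian p N
  hQ : IsElementaryAbelian q Q
  hN1 : N ≠ ⊥
  hQ1 : Q ≠ ⊥
  KN : K ≤ Subgroup.normalizer (N : Set G)
  KQ : K ≤ Subgroup.normalizer (Q : Set G)
  comm : ∀ n ∈ N, ∀ y ∈ Q, Commute n y
  Kpr : ∀ l, l.Prime → l ∣ Nat.card K → l = r ∨ l = t
  pqr : Tri G p q r
  pqt : Tri G p q t
  prt : Tri G p r t
  qrt : Tri G q r t
  Er : ∃ E ≤ K, Sq r E
  Et : ∃ E ≤ K, Sq t E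

namespace Pair

variable {p q r t : ℕ} {N Q K : Subgroup G} (S : Pair p q r t N Q K)
include S

theorem swapNQ : Pair q p r t Q N K :=
  ⟨S.hq, S.hp, S.hr, S.ht, S.rq, S.tq, S.rp, S.tp, S.rt, S.hQ, S.hN, S.hQ1, S.hN1, S.KQ, S.KN,
    fun y hy n hn => (S.comm n hn y hy).symm, S.Kpr, S.pqr.swap12, S.pqt.swap12, S.qrt, S.prt,
    S.Er, S.Et⟩

theorem swapRT : Pair p q t r N Q K :=
  ⟨S.hp, S.hq, S.ht, S.hr, S.tp, S.rp, S.tq, S.rq, S.rt.symm, S.hN, S.hQ, S.hN1, S.hQ1, S.KN,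
    S.KQ, S.comm, fun l hl hd => (S.Kpr l hl hd).symm, S.pqt, S.pqr, S.prt.swap23, S.qrt.swap23,
    S.Et, S.Er⟩

theorem not_both {s : ℕ} (hs : s = r ∨ s = t) {e : G} (he : orderOf e = s) (hfN : Fx N e)
    (hfQ : Fx Q e) : False := by
  obtain ⟨n, hn, hn1, hen⟩ := hfN
  obtain ⟨y, hy, hy1, hey⟩ := hfQ
  have h1 := ea_orderOf S.hp S.hN hn hn1
  have h2 := ea_orderOf S.hq S.hQ hy hy1
  rcases hs with rfl | rfl
  · exact S.pqr n y e h1 h2 he (S.comm n hn y hy) hen.symm hey.symm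
  · exact S.pqt n y e h1 h2 he (S.comm n hn y hy) hen.symm hey.symm

theorem faithful_ea {A : Subgroup G} (hAK : A ≤ K) (hA : IsElementaryAbelian r A) (hA1 : A ≠ ⊥)
    (hn : K ≤ Subgroup.normalizer (A : Set G)) (hc : ∀ a ∈ A, ∀ n ∈ N, Commute a n) : False := by
  obtain ⟨E, hEK, hE⟩ := S.Et
  obtain ⟨c, hcE, hco, hcf⟩ := fx_sq S.hp S.ht S.tp S.hN S.hN1 hE (hEK.trans S.KN)
  have hcQ : ¬ Fx Q c := fun h => S.not_both (Or.inr rfl) hco hcf h
  obtain ⟨n, hnN, hn1, hcn⟩ := hcf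
  have hfp : ∀ a ∈ A, Commute c a → a = 1 := by
    intro a ha hca
    by_contra ha1
    exact S.prt n a c (ea_orderOf S.hp S.hN hnN hn1) (ea_orderOf S.hr hA ha ha1) hco
      (hc a ha n hnN).symm hcn.symm hca.symm
  have hcQ' := frob_prime S.hQ.1 hA.1 S.ht hco (hAK.trans S.KQ) (S.KQ (hEK hcE)) (hn (hEK hcE))
    hfp hcQ (ea_coprime S.hr S.hq S.rq hA S.hQ)
  obtain ⟨a, ha, ha1⟩ := (Subgroup.bot_or_exists_ne_one A).resolve_left hA1
  obtain ⟨y, hy, hy1⟩ := (Subgroup.bot_or_exists_ne_one Q).resolve_left S.hQ1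
  exact S.pqr n y a (ea_orderOf S.hp S.hN hnN hn1) (ea_orderOf S.hq S.hQ hy hy1)
    (ea_orderOf S.hr hA ha ha1) (S.comm n hnN y hy) (hc a ha n hnN).symm (hcQ' a ha y hy).symm

theorem ker_trivial [Group.IsSolvable G] {x : G} (hx : x ∈ K) (hxN : ∀ n ∈ N, Commute x n) :
    x = 1 := by
  let C : Subgroup G := K ⊓ Subgroup.centralizer (N : Set G)
  have hxC : x ∈ C := ⟨hx, Subgroup.mem_centralizer_iff.2 fun n hn => (hxN n hn).eq.symm⟩
  by_contra hx1
  have hC1 : C ≠ ⊥ := fun h => hx1 (Subgroup.mem_bot.1 (h ▸ hxC))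
  have hn : K ≤ Subgroup.normalizer (C : Set G) := fun g hg => by
    refine Coprime.mem_normalizer_of_conj_mem fun y hy => ⟨K.mul_mem (K.mul_mem hg hy.1) (K.inv_mem hg), ?_⟩
    refine Subgroup.mem_centralizer_iff.2 fun n hn => ?_
    have h1 := Subgroup.mem_centralizer_iff.1 hy.2 _ ((Subgroup.mem_normalizer_iff''.1 (S.KN hg) n).1 hn)
    calc n * (g * y * g⁻¹) = g * ((g⁻¹ * n * g) * y) * g⁻¹ := by group
      _ = g * (y * (g⁻¹ * n * g)) * g⁻¹ := by rw [h1]
      _ = _ := by group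
  obtain ⟨s, hs, hd, A, hAC, hA1, hA, hAn⟩ := exists_ea (inf_le_left : C ≤ K) hn hC1
  have hc : ∀ a ∈ A, ∀ n ∈ N, Commute a n := fun a ha n hn =>
    (Subgroup.mem_centralizer_iff.1 (hAC ha).2 n hn).symm
  rcases S.Kpr s hs hd with rfl | rfl
  · exact S.faithful_ea (hAC.trans inf_le_left) hA hA1 hAn hc
  · exact S.swapRT.faithful_ea (hAC.trans inf_le_left) hA hA1 hAn hc

theorem fx_of_moved [Group.IsSolvable G] {A : Subgroup G} (hAK : A ≤ K)
    (hA : IsElementaryAbelian r A) (hn : K ≤ Subgroup.normalizer (A : Set G)) {c : G} (hcK : c ∈ K)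
    (hc : orderOf c = t) (hm : ∃ a ∈ A, ¬ Commute c a) : Fx N c := by
  obtain ⟨B, hBA, hB1, hBn, hBf⟩ := moved_part S.ht S.hr S.rt hA hc (hn hcK) hm
  by_contra hf
  have h := frob_prime S.hN.1 (ea_le hA hBA).1 S.ht hc ((hBA.trans hAK).trans S.KN) (S.KN hcK) hBn
    hBf hf (ea_coprime S.hr S.hp S.rp (ea_le hA hBA) S.hN)
  exact hB1 ((Subgroup.eq_bot_iff_forall _).2 fun b hb => S.ker_trivial (hAK (hBA hb)) (h b hb))

theorem comm_ea [Group.IsSolvable G] {A : Subgroup G} (hAK : A ≤ K) (hA : IsElementaryAbelian r A)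
    (hn : K ≤ Subgroup.normalizer (A : Set G)) {c : G} (hcK : c ∈ K) (hc : orderOf c = t) :
    ∀ a ∈ A, Commute c a := by
  by_contra! hm
  exact S.not_both (Or.inr rfl) hc (S.fx_of_moved hAK hA hn hcK hc hm)
    (S.swapNQ.fx_of_moved hAK hA hn hcK hc hm)

theorem nc [Group.IsSolvable G] : NC K r := by
  intro A hAK hA hn a ha ha1 b hb
  by_contra hba
  have hb1 : b ≠ 1 := fun h => hba (h ▸ one_mem _)
  obtain ⟨D, hDK, hD⟩ := S.Et
  have hE := mk_sq S.hr (ea_orderOf S.hr hA ha ha1) (ea_orderOf S.hr hA hb hb1) (ea_comm hA ha hb) hba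
  have hEA : Subgroup.zpowers a ⊔ Subgroup.zpowers b ≤ A :=
    sup_le (Subgroup.zpowers_le.2 ha) (Subgroup.zpowers_le.2 hb)
  exact sq_sq_false S.hp S.hr S.ht S.rp S.tp S.prt S.hN S.hN1 hE hD ((hEA.trans hAK).trans S.KN)
    (hDK.trans S.KN) fun e he d hd => by
      rcases eq_or_ne d 1 with rfl | hd1
      · exact Commute.one_right e
      · exact (S.comm_ea hAK hA hn (hDK hd) (ea_orderOf S.ht hD.1 hd hd1) e (hEA he)).symm

theorem z_fpf [Group.IsSolvable G] {z : G} (hzK : z ∈ K) (hz : orderOf z = r)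
    (hn : K ≤ Subgroup.normalizer (Subgroup.zpowers z : Set G)) : ¬ Fx N z := by
  intro hf
  obtain ⟨D, hDK, hD⟩ := S.Et
  have hcz : ∀ c ∈ D, Commute c z := fun c hc => by
    rcases eq_or_ne c 1 with rfl | h1
    · exact Commute.one_left z
    · exact S.comm_ea (Subgroup.zpowers_le.2 hzK) (ea_zpowers hz) hn (hDK hc)
        (ea_orderOf S.ht hD.1 hc h1) z (Subgroup.mem_zpowers z)
  obtain ⟨c, hcD, hco, n, hn, hn1, hcn⟩ := fx_sq S.hp S.ht S.tp (ea_le S.hN inf_le_left) hf.sub hD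
    (fun c hc => norm_centralizer (S.KN (hDK hc)) (hcz c hc))
  exact S.prt n z c (ea_orderOf S.hp S.hN hn.1 hn1) hz hco (centralizer_singleton_mem.1 hn.2).symm
    hcn.symm (hcz c hcD).symm

/-- Every element of order `t` centralises `O_r(K)`. -/
theorem cent_core [Group.IsSolvable G] {c : G} (hcK : c ∈ K) (hc : orderOf c = t) :
    ∀ x ∈ core r K, Commute c x := by
  rcases eq_or_ne (core r K) ⊥ with h | h
  · intro x hx
    rw [h, Subgroup.mem_bot] at hx
    exact hx ▸ Commute.one_right c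
  obtain ⟨z, hzU, hz, hzc, hzn, hcen⟩ := exists_z S.hr h S.nc
  have hzK := core_le r K hzU
  have hzN := S.z_fpf hzK hz hzn
  have hzQ := S.swapNQ.z_fpf hzK hz hzn
  have hr2 : r ≠ 2 := by
    intro h2
    obtain ⟨E, hEK, hE⟩ := S.Er
    obtain ⟨b, hbE, hbo, hbz⟩ := sq_exists_not_mem S.hr hE z
    have hbK := hEK hbE
    have hzb : Commute b z := commute_of_normalizes S.hr hz (hzn hbK)
      (hbo ▸ pow_orderOf_eq_one b) (coprime_sub_one_self S.hr)
    have two : ∀ w : G, orderOf w = r → ∀ x ∈ Subgroup.zpowers w, x = 1 ∨ x = w := by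
      intro w hw x hx
      obtain ⟨k, rfl⟩ := exists_pow_eq hx
      rw [← pow_mod_orderOf, hw, h2]
      rcases Nat.mod_two_eq_zero_or_one k with e | e <;> simp [e]
    have hsq := mk_sq S.hr hz hbo hzb.symm hbz
    have key : ∀ (M : Subgroup G) (l : ℕ), l.Prime → r ≠ l → IsElementaryAbelian l M →
        K ≤ Subgroup.normalizer (M : Set G) → ¬ Fx M z →
        (∀ x ∈ K, (∀ n ∈ M, Commute x n) → x = 1) → Fx M b := by
      intro M l hl hrl hM hKM hzM hker
      by_contra hbM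
      haveI := hsq.1.1
      have hle : Subgroup.zpowers z ⊔ Subgroup.zpowers b ≤ K :=
        sup_le (Subgroup.zpowers_le.2 hzK) (Subgroup.zpowers_le.2 hbK)
      have hj := Coprime.eq_centralizerJoin (sq_not_cyclic S.hr hsq) (hle.trans hKM)
        (ea_coprime S.hr hl hrl hsq.1 hM)
      have hsub : M ≤ Subgroup.centralizer {z * b} := by
        refine hj ▸ iSup_le fun e n hn => ?_
        have he := e.2.1
        have hnn : Subgroup.zpowers b ≤ Subgroup.normalizer (Subgroup.zpowers z : Set G) :=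
          Subgroup.zpowers_le.2 (hzn hbK)
        rw [← SetLike.mem_coe, Subgroup.coe_mul_of_right_le_normalizer_left _ _ hnn] at he
        obtain ⟨x, hx, y, hy, hxy⟩ := he
        have hen : Commute (e : G) n := centralizer_singleton_mem.1 hn.2
        rw [centralizer_singleton_mem]
        rcases two z hz x hx with rfl | rfl <;> rcases two b hbo y hy with rfl | rfl <;>
          simp only [one_mul, mul_one] at hxy <;> rw [← hxy] at hen
        · exact absurd hxy.symm e.2.2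
        · rw [eq_one_of_not_fx hbM hn.1 hen]; exact Commute.one_right _
        · rw [eq_one_of_not_fx hzM hn.1 hen]; exact Commute.one_right _
        · exact hen
      have h1 := hker (z * b) (K.mul_mem hzK hbK) fun n hn => centralizer_singleton_mem.1 (hsub hn)
      exact hbz (eq_inv_of_mul_eq_one_right h1 ▸ Subgroup.inv_mem _ (Subgroup.mem_zpowers z))
    exact S.not_both (Or.inl rfl) hbo (key N p S.hp S.rp S.hN S.KN hzN fun x => S.ker_trivial)
      (key Q q S.hq S.rq S.hQ S.KQ hzQ fun x => S.swapNQ.ker_trivial)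
  refine core_fixed S.hr hr2 S.ht S.rt.symm hc hcK fun x hx hxo => ?_
  suffices hxz : x ∈ Subgroup.zpowers z by
    obtain ⟨i, rfl⟩ := Subgroup.mem_zpowers_iff.1 hxz
    exact (S.comm_ea (Subgroup.zpowers_le.2 hzK) (ea_zpowers hz) hzn hcK hc z
      (Subgroup.mem_zpowers z)).zpow_right i
  by_contra hxz
  obtain ⟨b, hb, hbo, hbz, hbc⟩ := exists_second S.hr hr2 (core_pgroup r K) hz hzU hzc hcen hx hxo hxz
  obtain ⟨g, hg, j, hj, hgb⟩ := exists_conj_of_comm hz hzU hcen hb (hbo ▸ pow_orderOf_eq_one b)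
    hbz hzc hbc
  have hbK := core_le r K hb
  have hgK := core_le r K hg
  exact S.not_both (Or.inl rfl) hbo
    (conj_fx S.hp S.hr S.rp S.hN S.hN1 hz hbo (hzc b hb) hbz (hzc g hg).symm hgb hj (S.KN hzK)
      (S.KN hbK) (S.KN hgK) hzN)
    (conj_fx S.hq S.hr S.rq S.hQ S.hQ1 hz hbo (hzc b hb) hbz (hzc g hg).symm hgb hj (S.KQ hzK)
      (S.KQ hbK) (S.KQ hgK) hzQ)

theorem contradiction' [Group.IsSolvable G] : False := by
  obtain ⟨E, hEK, hE⟩ := S.Er
  obtain ⟨D, hDK, hD⟩ := S.Et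
  refine sq_sq_false S.hp S.hr S.ht S.rp S.tp S.prt S.hN S.hN1 hE hD (hEK.trans S.KN)
    (hDK.trans S.KN) fun e he d hd => ?_
  rcases eq_or_ne e 1 with rfl | he1
  · exact Commute.one_left d
  rcases eq_or_ne d 1 with rfl | hd1
  · exact Commute.one_right e
  have heo := ea_orderOf S.hr hE.1 he he1
  have hdo := ea_orderOf S.ht hD.1 hd hd1
  exact commute_of_cores S.hr S.ht S.ht S.rt S.rt
    (fun l hl hlr hlt => core_eq_bot_of_not_dvd hl fun hd' => (S.Kpr l hl hd').elim hlr hlt)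
    (hEK he) (hDK hd) heo hdo (S.swapRT.cent_core (hEK he) heo) (S.cent_core (hDK hd) hdo)

end Pair

end Cfsg.Agent.FourPrimes
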