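import Cfsg.Agent.FourPrimes.Base
import Cfsg.Agent.Transfer.PGroupNormal
import Cfsg.Agent.FGS3.FixOrderFour

/-! The cores of a `{q, r}`-group and conjugates in a `p`-group with cyclic central socle. -/

set_option autoImplicit false
set_option linter.unusedSectionVars false
set_option linter.style.haveILetI false

namespace Cfsg.Agent.FourPrimes

open Cfsg Cfsg.Agent
open scoped Pointwise

variable {G : Type*} [Group G] [Finite G]

/-- `O_s(H)` as a subgroup of `G`. -/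
def core (s : ℕ) (H : Subgroup G) : Subgroup G := (pCore s ↥H).map H.subtype

theorem core_le (s : ℕ) (H : Subgroup G) : core s H ≤ H := Subgroup.map_subtype_le _

theorem core_pgroup (s : ℕ) (H : Subgroup G) : IsPGroup s (core s H) :=
  (Core.isPGroup_pCore s H).map _

theorem norm_core (s : ℕ) (H : Subgroup G) : H ≤ Subgroup.normalizer (core s H : Set G) := by
  intro g hg
  refine Coprime.mem_normalizer_of_conj_mem ?_
  rintro _ ⟨a, ha, rfl⟩
  exact ⟨⟨g, hg⟩ * a * ⟨g, hg⟩⁻¹, (inferInstance : (pCore s ↥H).Normal).conj_mem a ha _, by simp⟩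

theorem core_orderOf {s : ℕ} (hs : s.Prime) {H : Subgroup G} {x : G} (hx : x ∈ core s H) :
    ∃ k : ℕ, orderOf x = s ^ k := by
  haveI := Fact.mk hs
  obtain ⟨k, hk⟩ := IsPGroup.iff_orderOf.1 (core_pgroup s H) ⟨x, hx⟩
  exact ⟨k, by rw [← hk, ← Subgroup.orderOf_coe]⟩

theorem core_commute {s l : ℕ} (hs : s.Prime) (hl : l.Prime) (hne : s ≠ l) {H : Subgroup G}
    {x y : G} (hx : x ∈ core s H) (hy : y ∈ core l H) : Commute x y := by
  haveI := Fact.mk hs
  haveI := Fact.mk hl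
  obtain ⟨a, ha, rfl⟩ := hx
  obtain ⟨b, hb, rfl⟩ := hy
  exact congrArg Subtype.val (Subgroup.commute_of_normal_of_disjoint _ _
    (inferInstance : (pCore s ↥H).Normal) (inferInstance : (pCore l ↥H).Normal)
    (IsPGroup.disjoint_of_ne s l hne _ _ (Core.isPGroup_pCore s H) (Core.isPGroup_pCore l H)) a b ha hb)

/-- Any two elements of a normalised elementary abelian subgroup generate a cyclic group. -/
def NC (H : Subgroup G) (s : ℕ) : Prop :=
  ∀ A : Subgroup G, A ≤ H → IsElementaryAbelian s A → H ≤ Subgroup.normalizer (A : Set G) →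
    ∀ a ∈ A, a ≠ 1 → ∀ b ∈ A, b ∈ Subgroup.zpowers a

theorem zpowers_eq_of_nc {H : Subgroup G} {s : ℕ} (hnc : NC H s) {A : Subgroup G} (hA : A ≤ H)
    (hEA : IsElementaryAbelian s A) (hn : H ≤ Subgroup.normalizer (A : Set G)) {a : G} (ha : a ∈ A)
    (h1 : a ≠ 1) : A = Subgroup.zpowers a :=
  le_antisymm (hnc A hA hEA hn a ha h1) (Subgroup.zpowers_le.2 ha)

/-- A nontrivial core has a normalised central subgroup of prime order containing all its central
elements of that order. -/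
theorem exists_z {s : ℕ} (hs : s.Prime) {H : Subgroup G} (hne : core s H ≠ ⊥) (hnc : NC H s) :
    ∃ z ∈ core s H, orderOf z = s ∧ (∀ u ∈ core s H, Commute z u) ∧
      H ≤ Subgroup.normalizer (Subgroup.zpowers z : Set G) ∧
      ∀ x ∈ core s H, x ^ s = 1 → (∀ u ∈ core s H, Commute x u) → x ∈ Subgroup.zpowers z := by
  haveI := Fact.mk hs
  set U := core s H with hU
  let A : Subgroup G :=
    { carrier := {x | x ∈ U ∧ x ^ s = 1 ∧ ∀ u ∈ U, Commute x u}
      one_mem' := ⟨U.one_mem, one_pow s, fun u _ => Commute.one_left u⟩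
      mul_mem' := by
        rintro x y ⟨hx, hxs, hxc⟩ ⟨hy, hys, hyc⟩
        exact ⟨U.mul_mem hx hy, by rw [(hxc y hy).mul_pow, hxs, hys, one_mul],
          fun u hu => (hxc u hu).mul_left (hyc u hu)⟩
      inv_mem' := by
        rintro x ⟨hx, hxs, hxc⟩
        exact ⟨U.inv_mem hx, by rw [inv_pow, hxs, inv_one], fun u hu => (hxc u hu).inv_left⟩ }
  have hAU : A ≤ U := fun x hx => hx.1
  have hA : IsElementaryAbelian s A :=
    ⟨⟨⟨fun a b => Subtype.ext (a.2.2.2 b b.2.1)⟩⟩, fun a ha => ha.2.1⟩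
  have hn : H ≤ Subgroup.normalizer (A : Set G) := by
    intro g hg
    refine Coprime.mem_normalizer_of_conj_mem fun x hx => ?_
    have hg' := norm_core s H hg
    refine ⟨(Subgroup.mem_normalizer_iff.1 hg' x).1 hx.1, by rw [conj_pow, hx.2.1]; group,
      fun u hu => ?_⟩
    have h1 : g⁻¹ * u * g ∈ U := (Subgroup.mem_normalizer_iff''.1 hg' u).1 hu
    have h2 := hx.2.2 _ h1
    show g * x * g⁻¹ * u = u * (g * x * g⁻¹)
    calc g * x * g⁻¹ * u = g * (x * (g⁻¹ * u * g)) * g⁻¹ := by group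
      _ = g * ((g⁻¹ * u * g) * x) * g⁻¹ := by rw [h2.eq]
      _ = _ := by group
  haveI : Nontrivial U := (Subgroup.nontrivial_iff_ne_bot U).2 hne
  haveI := (core_pgroup s H).center_nontrivial (G := U)
  obtain ⟨w, hw⟩ := exists_prime_orderOf_dvd_card' (G := Subgroup.center U) s (by
    obtain ⟨k, hk, hk'⟩ := ((core_pgroup s H).to_subgroup (Subgroup.center U)).nontrivial_iff_card.1
      inferInstance
    rw [hk']; exact dvd_pow_self s hk.ne')
  have hwo : orderOf ((w : U) : G) = s := by rw [Subgroup.orderOf_coe, Subgroup.orderOf_coe, hw]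
  have hwA : ((w : U) : G) ∈ A := ⟨(w : U).2, hwo ▸ pow_orderOf_eq_one _, fun u hu =>
    (congrArg Subtype.val (Subgroup.mem_center_iff.1 w.2 ⟨u, hu⟩)).symm⟩
  have hw1 : ((w : U) : G) ≠ 1 := fun h => hs.one_lt.ne (by rw [← hwo, h, orderOf_one])
  have heq := zpowers_eq_of_nc hnc (hAU.trans (core_le s H)) hA hn hwA hw1
  exact ⟨_, (w : U).2, hwo, hwA.2.2, heq ▸ hn, fun x hx hxs hxc => heq ▸ ⟨hx, hxs, hxc⟩⟩

/-- An element centralising all cores lies in the Fitting subgroup, here of two primes. -/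
theorem mem_sup_core [Group.IsSolvable G] {H : Subgroup G} {q r : ℕ} (hq : q.Prime) (hr : r.Prime)
    (honly : ∀ l, l.Prime → l ≠ q → l ≠ r → core l H = ⊥) {x : G} (hx : x ∈ H)
    (hxq : ∀ u ∈ core q H, Commute x u) (hxr : ∀ u ∈ core r H, Commute x u) :
    ∃ u ∈ core q H, ∃ v ∈ core r H, x = u * v := by
  set F := fittingSubgroup ↥H with hF
  have hle : F ≤ pCore q ↥H ⊔ pCore r ↥H := by
    rw [hF, Core.fittingSubgroup_eq_iSup]
    refine iSup_le fun l => ?_
    rcases eq_or_ne (l : ℕ) q with h | h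
    · rw [h]; exact le_sup_left
    rcases eq_or_ne (l : ℕ) r with h' | h'
    · rw [h']; exact le_sup_right
    have := (Subgroup.map_eq_bot_iff_of_injective _ H.subtype_injective).1 (honly l l.2 h h')
    rw [this]; exact bot_le
  have hc : (⟨x, hx⟩ : H) ∈ Subgroup.centralizer (F : Set H) := by
    have h2 : pCore q ↥H ⊔ pCore r ↥H ≤ Subgroup.centralizer {(⟨x, hx⟩ : H)} := by
      refine sup_le ?_ ?_ <;> intro u hu <;> refine centralizer_singleton_mem.2 (Subtype.ext ?_)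
      · exact (hxq u ⟨u, hu, rfl⟩).eq
      · exact (hxr u ⟨u, hu, rfl⟩).eq
    rw [Subgroup.mem_centralizer_iff]
    exact fun u hu => (centralizer_singleton_mem.1 (h2 (hle hu))).eq.symm
  have hm := hle (Core.centralizer_fittingSubgroup_le hc)
  rw [← SetLike.mem_coe, Subgroup.mul_normal] at hm
  obtain ⟨u, hu, v, hv, e⟩ := hm
  exact ⟨u, ⟨u, hu, rfl⟩, v, ⟨v, hv, rfl⟩, (congrArg Subtype.val e).symm⟩

theorem exists_pow_eq {z x : G} (h : x ∈ Subgroup.zpowers z) : ∃ k : ℕ, z ^ k = x := by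
  classical
  obtain ⟨k, -, hk⟩ := Finset.mem_image.1 (mem_zpowers_iff_mem_range_orderOf.1 h)
  exact ⟨k, hk⟩

/-- If `b` is conjugate to `b z^j` then `b` fixes a point as soon as `z` fixes none. -/
theorem conj_fx {p s : ℕ} (hp : p.Prime) (hs : s.Prime) (hne : s ≠ p) {N : Subgroup G}
    (hN : IsElementaryAbelian p N) (hN1 : N ≠ ⊥) {z b g : G} (hz : orderOf z = s)
    (hb : orderOf b = s) (hzb : Commute z b) (hbz : b ∉ Subgroup.zpowers z) (hgz : Commute g z)
    {j : ℕ} (hg : g * b * g⁻¹ = b * z ^ j) (hj : ¬ s ∣ j)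
    (hzN : z ∈ Subgroup.normalizer (N : Set G)) (hbN : b ∈ Subgroup.normalizer (N : Set G))
    (hgN : g ∈ Subgroup.normalizer (N : Set G)) (hzf : ¬ Fx N z) : Fx N b := by
  obtain ⟨e, he, heo, n, hn, hn1, hen⟩ := fx_sq hp hs hne hN hN1 (mk_sq hs hz hb hzb hbz)
    (sup_le (Subgroup.zpowers_le.2 hzN) (Subgroup.zpowers_le.2 hbN))
  have hnn : Subgroup.zpowers b ≤ Subgroup.normalizer (Subgroup.zpowers z : Set G) := by
    refine le_trans (Subgroup.zpowers_le.2 ?_) (Subgroup.centralizer_le_normalizer _)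
    rw [Subgroup.mem_centralizer_iff]
    intro y hy
    obtain ⟨i, rfl⟩ := Subgroup.mem_zpowers_iff.1 hy
    exact (hzb.zpow_left i).eq
  rw [← SetLike.mem_coe, Subgroup.coe_mul_of_right_le_normalizer_left _ _ hnn] at he
  obtain ⟨_, hy, _, hx, rfl⟩ := he
  obtain ⟨k, rfl⟩ := exists_pow_eq hy
  obtain ⟨i, rfl⟩ := exists_pow_eq hx
  have hi : ¬ s ∣ i := by
    intro hd
    have hbi : b ^ i = 1 := by rw [← orderOf_dvd_iff_pow_eq_one, hb]; exact hd
    simp only [hbi, mul_one] at hen heo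
    exact hzf ⟨n, hn, hn1, commute_of_mem_zpowers hen (mem_zpowers_of_prime hs hz
      (Subgroup.pow_mem _ (Subgroup.mem_zpowers z) k) (fun h => hs.one_lt.ne (by rw [← heo, h, orderOf_one])))⟩
  have hji : z ^ (j * i) ≠ 1 := by
    rw [Ne, ← orderOf_dvd_iff_pow_eq_one, hz, hs.dvd_mul]
    exact not_or.2 ⟨hj, hi⟩
  obtain ⟨m, hm⟩ := exists_pow_eq (Subgroup.zpowers_le.2
    (mem_zpowers_of_prime hs hz (Subgroup.pow_mem _ (Subgroup.mem_zpowers z) _) hji)
    (Subgroup.pow_mem _ (Subgroup.mem_zpowers z) k) : z ^ k ∈ Subgroup.zpowers (z ^ (j * i)))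
  have hpow : ∀ m : ℕ, g ^ m * b * (g ^ m)⁻¹ = b * z ^ (j * m) := by
    intro m
    induction m with
    | zero => simp
    | succ m ih =>
      calc g ^ (m + 1) * b * (g ^ (m + 1))⁻¹ = g * (g ^ m * b * (g ^ m)⁻¹) * g⁻¹ := by
            rw [pow_succ']; group
        _ = (g * b * g⁻¹) * (g * z ^ (j * m) * g⁻¹) := by rw [ih]; group
        _ = b * z ^ j * z ^ (j * m) := by
            rw [hg, (hgz.pow_right (j * m)).eq]; group
        _ = _ := by rw [mul_assoc, ← pow_add]; ring_nf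
  have hconj : g ^ m * b ^ i * (g ^ m)⁻¹ = z ^ k * b ^ i := by
    rw [← conj_pow, hpow, (hzb.symm.pow_right _).mul_pow, ← pow_mul, ← hm, ← pow_mul,
      ((hzb.pow_left _).pow_right i).eq]
    ring_nf
  refine ⟨(g ^ m)⁻¹ * n * g ^ m, ?_, ?_, ?_⟩
  · exact (Subgroup.mem_normalizer_iff''.1 (Subgroup.pow_mem _ hgN m) n).1 hn
  · intro h
    apply hn1
    calc n = g ^ m * ((g ^ m)⁻¹ * n * g ^ m) * (g ^ m)⁻¹ := by group
      _ = 1 := by rw [h]; group
  · have hbi : Commute (b ^ i) ((g ^ m)⁻¹ * n * g ^ m) := by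
      have hen' : Commute (g ^ m * b ^ i * (g ^ m)⁻¹) n := by rw [hconj]; exact hen
      show b ^ i * ((g ^ m)⁻¹ * n * g ^ m) = (g ^ m)⁻¹ * n * g ^ m * b ^ i
      calc b ^ i * ((g ^ m)⁻¹ * n * g ^ m)
          = (g ^ m)⁻¹ * ((g ^ m * b ^ i * (g ^ m)⁻¹) * n) * g ^ m := by group
        _ = (g ^ m)⁻¹ * (n * (g ^ m * b ^ i * (g ^ m)⁻¹)) * g ^ m := by rw [hen'.eq]
        _ = _ := by group
    refine commute_of_mem_zpowers hbi (mem_zpowers_of_prime hs hb
      (Subgroup.pow_mem _ (Subgroup.mem_zpowers b) i) ?_)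
    rw [Ne, ← orderOf_dvd_iff_pow_eq_one, hb]; exact hi

/-- A noncentral element commuting into `⟨z⟩` is conjugate to a translate. -/
theorem exists_conj_of_comm {s : ℕ} {U : Subgroup G} {z x : G} (hz : orderOf z = s) (hzU : z ∈ U)
    (hcen : ∀ y ∈ U, y ^ s = 1 → (∀ u ∈ U, Commute y u) → y ∈ Subgroup.zpowers z)
    (hxU : x ∈ U) (hxs : x ^ s = 1) (hxz : x ∉ Subgroup.zpowers z) (hzc : ∀ u ∈ U, Commute z u)
    (hx : ∀ g ∈ U, g * x * g⁻¹ * x⁻¹ ∈ Subgroup.zpowers z) :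
    ∃ g ∈ U, ∃ j : ℕ, ¬ s ∣ j ∧ g * x * g⁻¹ = x * z ^ j := by
  obtain ⟨g, hgU, hg⟩ : ∃ g ∈ U, ¬ Commute x g := by
    by_contra! h
    exact hxz (hcen x hxU hxs h)
  obtain ⟨j, hj⟩ := exists_pow_eq (hx g hgU)
  have he : g * x * g⁻¹ = x * z ^ j := by
    rw [eq_mul_inv_iff_mul_eq] at hj
    rw [← hj, ((hzc x hxU).pow_left j).eq]
  refine ⟨g, hgU, j, fun hd => hg ?_, he⟩
  rw [show z ^ j = 1 by rw [← orderOf_dvd_iff_pow_eq_one, hz]; exact hd, mul_one] at he
  exact (mul_inv_eq_iff_eq_mul.1 he).symm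

/-- In a `p`-group of odd exponent prime with a second element of order `s` there is a noncentral
element commuting into `⟨z⟩`. -/
theorem exists_second {s : ℕ} (hs : s.Prime) (hs2 : s ≠ 2) {U : Subgroup G} (hU : IsPGroup s U)
    {z b₀ : G} (hz : orderOf z = s) (hzU : z ∈ U) (hzc : ∀ u ∈ U, Commute z u)
    (hcen : ∀ y ∈ U, y ^ s = 1 → (∀ u ∈ U, Commute y u) → y ∈ Subgroup.zpowers z)
    (hb₀ : b₀ ∈ U) (hb₀s : orderOf b₀ = s) (hb₀z : b₀ ∉ Subgroup.zpowers z) :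
    ∃ b ∈ U, orderOf b = s ∧ b ∉ Subgroup.zpowers z ∧
      ∀ g ∈ U, g * b * g⁻¹ * b⁻¹ ∈ Subgroup.zpowers z := by
  haveI := Fact.mk hs
  have hnc : ¬ IsCyclic U := fun hc => sq_not_cyclic hs (mk_sq hs hz hb₀s (hzc b₀ hb₀) hb₀z)
    (haveI := hc
     isCyclic_of_injective (Subgroup.inclusion (sup_le (Subgroup.zpowers_le.2 hzU)
      (Subgroup.zpowers_le.2 hb₀))) (Subgroup.inclusion_injective _))
  obtain ⟨A, hAn, hA, hAc⟩ := Transfer.PNormal.exists_normal_ea_sq hs2 hU hnc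
  set E := A.map U.subtype with hEdef
  have hE : Sq s E := by
    refine ⟨⟨⟨⟨?_⟩⟩, ?_⟩, by rw [hEdef, Subgroup.card_map_of_injective U.subtype_injective, hAc]⟩
    · rintro ⟨_, a, ha, rfl⟩ ⟨_, b, hb, rfl⟩
      exact Subtype.ext (show (U.subtype a) * U.subtype b = U.subtype b * U.subtype a by
        rw [← map_mul, ← map_mul]
        exact congrArg U.subtype (congrArg Subtype.val (hA.1.1.1 ⟨a, ha⟩ ⟨b, hb⟩)))
    · rintro _ ⟨a, ha, rfl⟩
      rw [← map_pow, hA.2 a ha, map_one]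
  have hEU : E ≤ U := Subgroup.map_subtype_le _
  have hEn : ∀ g ∈ U, ∀ x ∈ E, g * x * g⁻¹ ∈ E := by
    rintro g hg _ ⟨a, ha, rfl⟩
    exact ⟨⟨g, hg⟩ * a * ⟨g, hg⟩⁻¹, hAn.conj_mem a ha _, by simp⟩
  obtain ⟨b, hbE, hbo, hbz⟩ := sq_exists_not_mem hs hE z
  refine ⟨b, hEU hbE, hbo, hbz, fun g hg => ?_⟩
  have hzE : z ∈ E := by
    have hA1 : A ≠ ⊥ := by
      intro h
      rw [h, Subgroup.card_bot] at hAc
      nlinarith [hs.two_le]
    haveI : Nontrivial A := (Subgroup.nontrivial_iff_ne_bot A).2 hA1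
    letI : MulAction U A := MulAction.compHom A (MulAut.conjNormal : U →* MulAut A)
    have hd : s ∣ Nat.card A := by rw [hAc]; exact dvd_pow_self s two_ne_zero
    obtain ⟨w, hw, hw1⟩ := hU.exists_fixed_point_of_prime_dvd_card_of_fixed_point A hd
      (a := 1) (fun u => map_one (MulAut.conjNormal u))
    have hwE : ((w : U) : G) ∈ E := ⟨w, w.2, rfl⟩
    have hwne : ((w : U) : G) ≠ 1 := fun h => hw1 (Subtype.ext (Subtype.ext h.symm))
    have hwz := hcen _ (w : U).2 (hE.1.2 _ hwE) (fun u hu => by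
      have e : (⟨u, hu⟩ : U) * w * (⟨u, hu⟩ : U)⁻¹ = w := congrArg Subtype.val (hw ⟨u, hu⟩)
      exact (mul_inv_eq_iff_eq_mul.1 (congrArg Subtype.val e)).symm)
    exact Subgroup.zpowers_le.2 hwE (mem_zpowers_of_prime hs hz hwz hwne)
  have hEeq : Subgroup.zpowers z ⊔ Subgroup.zpowers b = E :=
    Subgroup.eq_of_le_of_card_ge (sup_le (Subgroup.zpowers_le.2 hzE) (Subgroup.zpowers_le.2 hbE))
      (by rw [hE.2, (mk_sq hs hz hbo (hzc b (hEU hbE)) hbz).2])
  have hgb := hEn g hg b hbE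
  rw [← hEeq] at hgb
  have hnn : Subgroup.zpowers b ≤ Subgroup.normalizer (Subgroup.zpowers z : Set G) :=
    le_trans (Subgroup.zpowers_le.2 (Subgroup.mem_centralizer_iff.2 fun y hy => by
      obtain ⟨i, rfl⟩ := Subgroup.mem_zpowers_iff.1 hy
      exact ((hzc b (hEU hbE)).zpow_left i).eq)) (Subgroup.centralizer_le_normalizer _)
  rw [← SetLike.mem_coe, Subgroup.coe_mul_of_right_le_normalizer_left _ _ hnn] at hgb
  obtain ⟨_, hy, _, hx, he⟩ := hgb
  obtain ⟨k, rfl⟩ := exists_pow_eq hy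
  obtain ⟨i, rfl⟩ := exists_pow_eq hx
  simp only at he
  -- `g` acts trivially on `E / ⟨z⟩`
  have hiter : ∀ m : ℕ, ∃ l : ℕ, g ^ m * b * (g ^ m)⁻¹ = z ^ l * b ^ (i ^ m) := by
    intro m
    induction m with
    | zero => exact ⟨0, by simp⟩
    | succ m ih =>
      obtain ⟨l, hl⟩ := ih
      refine ⟨l + k * i ^ m, ?_⟩
      calc g ^ (m + 1) * b * (g ^ (m + 1))⁻¹ = g * (g ^ m * b * (g ^ m)⁻¹) * g⁻¹ := by
            rw [pow_succ']; group
        _ = (g * z ^ l * g⁻¹) * (g * b * g⁻¹) ^ (i ^ m) := by rw [hl, conj_pow]; group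
        _ = z ^ l * (z ^ k * b ^ i) ^ (i ^ m) := by
            rw [← he, ((hzc g hg).symm.pow_right l).eq, mul_inv_cancel_right]
        _ = _ := by
            rw [(((hzc b (hEU hbE)).pow_left k).pow_right i).mul_pow, ← pow_mul, ← pow_mul,
              ← pow_succ', ← mul_assoc, ← pow_add]
  obtain ⟨e, hgo⟩ := IsPGroup.iff_orderOf.1 hU ⟨g, hg⟩
  rw [Subgroup.orderOf_mk] at hgo
  obtain ⟨l, hl⟩ := hiter (s ^ e)
  rw [← hgo, pow_orderOf_eq_one, one_mul, inv_one, mul_one, hgo] at hl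
  have hF : ((i ^ s ^ e : ℕ) : ZMod s) = (i : ZMod s) := by
    rw [Nat.cast_pow, ZMod.pow_card_pow]
  have hmod : i ≡ 1 [MOD s] := by
    have h1 : (i ^ s ^ e) ≡ 1 [MOD s] := by
      by_contra hne
      have hzl : z ^ l = b * (b ^ (i ^ s ^ e))⁻¹ := eq_mul_inv_of_mul_eq hl.symm
      have hmem : b * (b ^ (i ^ s ^ e))⁻¹ ∈ Subgroup.zpowers b :=
        Subgroup.mul_mem _ (Subgroup.mem_zpowers b)
          (Subgroup.inv_mem _ (Subgroup.pow_mem _ (Subgroup.mem_zpowers b) _))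
      have h0 : z ^ l = 1 := Subgroup.mem_bot.1 ((disjoint_zpowers hs hbo hbz).le_bot
        ⟨Subgroup.pow_mem _ (Subgroup.mem_zpowers z) l, hzl ▸ hmem⟩)
      rw [h0, one_mul] at hl
      have h2 := pow_eq_pow_iff_modEq.1 (show b ^ (i ^ s ^ e) = b ^ 1 by rw [← hl, pow_one])
      rw [hbo] at h2
      exact hne h2
    rw [← ZMod.natCast_eq_natCast_iff] at h1 ⊢
    rwa [hF] at h1
  have hbi : b ^ i = b := by
    rw [← hbo] at hmod
    simpa using pow_eq_pow_iff_modEq.2 hmod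
  rw [hbi] at he
  rw [← he, mul_inv_cancel_right]
  exact Subgroup.pow_mem _ (Subgroup.mem_zpowers z) k

/-- A coprime element centralising `Ω₁` of a core of odd prime centralises it. -/
theorem core_fixed {s : ℕ} (hs : s.Prime) (hs2 : s ≠ 2) {H : Subgroup G} {c : G} {t : ℕ}
    (ht : t.Prime) (hts : t ≠ s) (hc : orderOf c = t) (hcH : c ∈ H)
    (h : ∀ x ∈ core s H, orderOf x = s → Commute c x) : ∀ x ∈ core s H, Commute c x := by
  haveI := Fact.mk hs
  intro x hx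
  refine mul_inv_eq_iff_eq_mul.1 (FGS3.fixed_of_fixed_order_p_four c ?_ _ (core s H) le_rfl
    (core_pgroup s H) (fun y hy => (Subgroup.mem_normalizer_iff.1 (norm_core s H hcH) y).1 hy)
    (fun y hy hy' => mul_inv_eq_iff_eq_mul.2 ?_) x hx)
  · rw [hc]; exact (Nat.coprime_primes ht hs).2 hts
  · rcases eq_or_ne y 1 with rfl | hy1
    · simp
    · exact (h y hy (orderOf_eq_prime (hy'.resolve_right fun h => hs2 h.1) hy1)).eq

end Cfsg.Agent.FourPrimes
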