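import Cfsg.Agent.FourPrimes.Commuting

/-! A `{q, r, t}`-group acting on `N`: normal elementary subgroups acting faithfully are cyclic. -/

set_option autoImplicit false
set_option linter.unusedSectionVars false
set_option linter.style.haveILetI false

namespace Cfsg.Agent.FourPrimes

open Cfsg Cfsg.Agent

variable {G : Type*} [Group G] [Finite G]

theorem commute_of_norm_disjoint {A B : Subgroup G} {a b : G} (ha : a ∈ A) (hb : b ∈ B)
    (haB : a ∈ Subgroup.normalizer (B : Set G)) (hbA : b ∈ Subgroup.normalizer (A : Set G))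
    (hd : Disjoint A B) : Commute a b := by
  have h1 : a * b * a⁻¹ * b⁻¹ ∈ A := by
    rw [show a * b * a⁻¹ * b⁻¹ = a * (b * a⁻¹ * b⁻¹) by group]
    exact A.mul_mem ha ((Subgroup.mem_normalizer_iff.1 hbA _).1 (A.inv_mem ha))
  have h2 : a * b * a⁻¹ * b⁻¹ ∈ B :=
    B.mul_mem ((Subgroup.mem_normalizer_iff.1 haB _).1 hb) (B.inv_mem hb)
  exact commutatorElement_eq_one_iff_mul_comm.1 (Subgroup.mem_bot.1 (hd.le_bot ⟨h1, h2⟩))

theorem exists_pow_prime {s : ℕ} (hs : s.Prime) {x : G} (hx : ∃ k, orderOf x = s ^ k) (h1 : x ≠ 1) :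
    ∃ m : ℕ, orderOf (x ^ m) = s := by
  obtain ⟨k, hk⟩ := hx
  rcases k with _ | k
  · exact absurd (orderOf_eq_one_iff.1 (by simpa using hk)) h1
  refine ⟨s ^ k, ?_⟩
  rw [orderOf_pow' x (pow_ne_zero _ hs.ne_zero), hk, Nat.gcd_eq_right (pow_dvd_pow s k.le_succ),
    pow_succ, Nat.mul_div_cancel_left _ (pow_pos hs.pos k)]

/-- A `{q, r, t}`-group `H` acting on `N` without triples. -/
structure Act (p q r t : ℕ) (N H : Subgroup G) : Prop where
  hp : p.Prime
  hq : q.Prime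
  hr : r.Prime
  ht : t.Prime
  qp : q ≠ p
  rp : r ≠ p
  tp : t ≠ p
  qr : q ≠ r
  qt : q ≠ t
  rt : r ≠ t
  hN : IsElementaryAbelian p N
  hN1 : N ≠ ⊥
  HN : H ≤ Subgroup.normalizer (N : Set G)
  Hpr : ∀ l, l.Prime → l ∣ Nat.card H → l = q ∨ l = r ∨ l = t
  pqr : Tri G p q r
  pqt : Tri G p q t
  prt : Tri G p r t
  qrt : Tri G q r t
  Eq : ∃ E ≤ H, Sq q E
  Er : ∃ E ≤ H, Sq r E
  Et : ∃ E ≤ H, Sq t E
  Jqr : ∃ b ∈ H, ∃ c ∈ H, orderOf b = q ∧ orderOf c = r ∧ Commute b c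
  Jqt : ∃ b ∈ H, ∃ c ∈ H, orderOf b = q ∧ orderOf c = t ∧ Commute b c
  Jrt : ∃ b ∈ H, ∃ c ∈ H, orderOf b = r ∧ orderOf c = t ∧ Commute b c

namespace Act

variable {p q r t : ℕ} {N H : Subgroup G}

theorem swap12 (S : Act p q r t N H) : Act p r q t N H :=
  ⟨S.hp, S.hr, S.hq, S.ht, S.rp, S.qp, S.tp, S.qr.symm, S.rt, S.qt, S.hN, S.hN1, S.HN,
    fun l hl hd => by have := S.Hpr l hl hd; tauto,
    S.pqr.swap23, S.prt, S.pqt, S.qrt.swap12, S.Er, S.Eq, S.Et,
    (let ⟨b, hb, c, hc, e1, e2, e3⟩ := S.Jqr; ⟨c, hc, b, hb, e2, e1, e3.symm⟩), S.Jrt, S.Jqt⟩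

theorem swap23 (S : Act p q r t N H) : Act p q t r N H :=
  ⟨S.hp, S.hq, S.ht, S.hr, S.qp, S.tp, S.rp, S.qt, S.qr, S.rt.symm, S.hN, S.hN1, S.HN,
    fun l hl hd => by have := S.Hpr l hl hd; tauto,
    S.pqt, S.pqr, S.prt.swap23, S.qrt.swap23, S.Eq, S.Et, S.Er, S.Jqt, S.Jqr,
    (let ⟨b, hb, c, hc, e1, e2, e3⟩ := S.Jrt; ⟨c, hc, b, hb, e2, e1, e3.symm⟩)⟩

end Act

/-- The data of a normal faithful noncyclic `Q`. -/
structure NoncycAct (p q r t : ℕ) (N H Q : Subgroup G) : Prop extends Act p q r t N H where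
  QH : Q ≤ H
  hQ : IsElementaryAbelian q Q
  HQ : H ≤ Subgroup.normalizer (Q : Set G)
  Qf : ∀ y ∈ Q, (∀ n ∈ N, Commute y n) → y = 1
  Qnc : ∃ a ∈ Q, a ≠ 1 ∧ ∃ b ∈ Q, b ∉ Subgroup.zpowers a

namespace NoncycAct

variable {p q r t : ℕ} {N H Q : Subgroup G} (S : NoncycAct p q r t N H Q)
include S

theorem swap : NoncycAct p q t r N H Q :=
  ⟨S.toAct.swap23, S.QH, S.hQ, S.HQ, S.Qf, S.Qnc⟩

theorem Q_ne_bot : Q ≠ ⊥ := by
  obtain ⟨a, ha, ha1, -⟩ := S.Qnc
  exact fun h => ha1 (Subgroup.mem_bot.1 (h ▸ ha))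

theorem exists_sq : ∃ E ≤ Q, Sq q E := by
  obtain ⟨a, ha, ha1, b, hb, hba⟩ := S.Qnc
  exact ⟨_, sup_le (Subgroup.zpowers_le.2 ha) (Subgroup.zpowers_le.2 hb),
    mk_sq S.hq (ea_orderOf S.hq S.hQ ha ha1)
      (ea_orderOf S.hq S.hQ hb fun h => hba (h ▸ one_mem _)) (ea_comm S.hQ ha hb) hba⟩

theorem fx_of_moved {e : G} (heH : e ∈ H) (he : orderOf e = r) (hm : ∃ y ∈ Q, ¬ Commute e y) :
    Fx N e := by
  obtain ⟨B, hBQ, hB1, hBn, hBf⟩ := moved_part S.hr S.hq S.qr S.hQ he (S.HQ heH) hm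
  by_contra hf
  have h := frob_prime S.hN.1 (ea_le S.hQ hBQ).1 S.hr he ((hBQ.trans S.QH).trans S.HN) (S.HN heH)
    hBn hBf hf (ea_coprime S.hq S.hp S.qp (ea_le S.hQ hBQ) S.hN)
  exact hB1 ((Subgroup.eq_bot_iff_forall _).2 fun b hb => S.Qf b (hBQ hb) (h b hb))

theorem not_fx_of_cent {e : G} (heH : e ∈ H) (he : orderOf e = r) (hc : ∀ y ∈ Q, Commute e y) :
    ¬ Fx N e := by
  intro hf
  obtain ⟨E, hEQ, hE⟩ := S.exists_sq
  obtain ⟨y, hy, hyo, n, hn, hn1, hyn⟩ := fx_sq S.hp S.hq S.qp (ea_le S.hN inf_le_left) hf.sub hE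
    (fun y hy => norm_centralizer (S.HN (S.QH (hEQ hy))) (hc y (hEQ hy)).symm)
  exact S.pqr n y e (ea_orderOf S.hp S.hN hn.1 hn1) hyo he hyn.symm
    (centralizer_singleton_mem.1 hn.2).symm (hc y (hEQ hy)).symm

theorem no_fix_of_fx {b c : G} (hbH : b ∈ H) (hcH : c ∈ H) (hb : orderOf b = r)
    (hc : orderOf c = t) (hbc : Commute b c) (hfb : Fx N b) : ∀ y ∈ Q, Commute b y → y = 1 := by
  intro y hy hby
  by_contra hy1
  set Q1 := Q ⊓ Subgroup.centralizer {b} with hQ1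
  set W := N ⊓ Subgroup.centralizer {b} with hW
  have hyQ1 : y ∈ Q1 := ⟨hy, centralizer_singleton_mem.2 hby⟩
  have hcom : ∀ a ∈ Q1, ∀ n ∈ W, Commute a n := by
    refine frob_prime (ea_le S.hN inf_le_left).1 (ea_le S.hQ inf_le_left).1 S.ht hc
      (fun a ha => norm_centralizer (S.HN (S.QH ha.1)) (centralizer_singleton_mem.1 ha.2).symm)
      (norm_centralizer (S.HN hcH) hbc.symm) (norm_centralizer (S.HQ hcH) hbc.symm) ?_ ?_
      (ea_coprime S.hq S.hp S.qp (ea_le S.hQ inf_le_left) (ea_le S.hN inf_le_left))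
    · intro a ha hca
      by_contra ha1
      exact S.qrt a b c (ea_orderOf S.hq S.hQ ha.1 ha1) hb hc
        (centralizer_singleton_mem.1 ha.2).symm hca.symm hbc
    · rintro ⟨n, hn, hn1, hcn⟩
      exact S.prt n b c (ea_orderOf S.hp S.hN hn.1 hn1) hb hc
        (centralizer_singleton_mem.1 hn.2).symm hcn.symm hbc
  obtain ⟨n, hn, hn1⟩ := (Subgroup.bot_or_exists_ne_one W).resolve_left hfb.sub
  exact S.pqr n y b (ea_orderOf S.hp S.hN hn.1 hn1) (ea_orderOf S.hq S.hQ hy hy1) hb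
    (hcom y hyQ1 n hn).symm (centralizer_singleton_mem.1 hn.2).symm hby.symm

theorem pair_cent {b c : G} (hbH : b ∈ H) (hcH : c ∈ H) (hb : orderOf b = r)
    (hc : orderOf c = t) (hbc : Commute b c) :
    (∀ y ∈ Q, Commute b y) ∨ (∀ y ∈ Q, Commute c y) := by
  by_contra! hcon
  have hfb := S.fx_of_moved hbH hb hcon.1
  have hfc := S.swap.fx_of_moved hcH hc hcon.2
  have hQb := S.no_fix_of_fx hbH hcH hb hc hbc hfb
  have hQc := S.swap.no_fix_of_fx hcH hbH hc hb hbc.symm hfc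
  have hbr : b ^ r = 1 := hb ▸ pow_orderOf_eq_one b
  have hct : c ^ t = 1 := hc ▸ pow_orderOf_eq_one c
  have hcop := (Nat.coprime_primes S.hr S.ht).2 S.rt
  have key : ∀ x : G, ∀ i : ℕ, Commute ((b * c) ^ i) x → (b * c) ^ i ≠ 1 →
      Commute b x ∨ Commute c x := by
    intro x i hix hne
    have h1 : Commute (c ^ (i * r)) x := by
      have := hix.pow_left r
      rwa [← pow_mul, hbc.mul_pow, mul_comm i r, pow_mul b, hbr, one_pow, one_mul, mul_comm r i] at this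
    have h2 : Commute (b ^ (i * t)) x := by
      have := hix.pow_left t
      rwa [← pow_mul, hbc.mul_pow, mul_comm i t, pow_mul c, hct, one_pow, mul_one, mul_comm t i] at this
    by_cases hbi : b ^ (i * t) = 1
    · by_cases hci : c ^ (i * r) = 1
      · refine absurd ?_ hne
        have e1 : b ^ i = 1 := eq_one_of_coprime_pow (by rw [← pow_mul]; exact hbi)
          (by rw [← pow_mul, mul_comm, pow_mul, hbr, one_pow]) hcop.symm
        have e2 : c ^ i = 1 := eq_one_of_coprime_pow (by rw [← pow_mul]; exact hci)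
          (by rw [← pow_mul, mul_comm, pow_mul, hct, one_pow]) hcop
        rw [hbc.mul_pow, e1, e2, one_mul]
      · exact Or.inr (commute_of_mem_zpowers h1 (mem_zpowers_of_prime S.ht hc
          (Subgroup.pow_mem _ (Subgroup.mem_zpowers c) _) hci))
    · exact Or.inl (commute_of_mem_zpowers h2 (mem_zpowers_of_prime S.hr hb
        (Subgroup.pow_mem _ (Subgroup.mem_zpowers b) _) hbi))
  have hfix : ¬ Fx N (b * c) := by
    rintro ⟨n, hn, hn1, hcn⟩
    have h1 : Commute (b ^ t) n := by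
      have := hcn.pow_left t
      rwa [hbc.mul_pow, hct, mul_one] at this
    have h2 : Commute (c ^ r) n := by
      have := hcn.pow_left r
      rwa [hbc.mul_pow, hbr, one_mul] at this
    have hbt : b ^ t ≠ 1 := fun h => S.hr.one_lt.ne (by
      rw [← hb, eq_one_of_coprime_pow hbr h hcop, orderOf_one])
    have hcr : c ^ r ≠ 1 := fun h => S.ht.one_lt.ne (by
      rw [← hc, eq_one_of_coprime_pow hct h hcop.symm, orderOf_one])
    exact S.prt n b c (ea_orderOf S.hp S.hN hn hn1) hb hc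
      (commute_of_mem_zpowers h1 (mem_zpowers_of_prime S.hr hb
        (Subgroup.pow_mem _ (Subgroup.mem_zpowers b) _) hbt)).symm
      (commute_of_mem_zpowers h2 (mem_zpowers_of_prime S.ht hc
        (Subgroup.pow_mem _ (Subgroup.mem_zpowers c) _) hcr)).symm hbc
  have hall := frob S.hN.1 S.hQ.1 (S.QH.trans S.HN) (S.HN (H.mul_mem hbH hcH))
    (S.HQ (H.mul_mem hbH hcH)) (fun x hx hx1 a ha hxa => by
      obtain ⟨i, rfl⟩ := exists_pow_eq hx
      rcases key a i hxa hx1 with h | h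
      · exact hQb a ha h
      · exact hQc a ha h) hfix (ea_coprime S.hq S.hp S.qp S.hQ S.hN)
  obtain ⟨y, hy, hy1⟩ := (Subgroup.bot_or_exists_ne_one Q).resolve_left S.Q_ne_bot
  exact hy1 (S.Qf y hy (hall y hy))

theorem contradiction_r [Group.IsSolvable G] {K : Subgroup G} (hKH : K ≤ H)
    (hKpr : ∀ l, l.Prime → l ∣ Nat.card K → l = r ∨ l = t)
    (hEr : ∃ E ≤ K, Sq r E) (hEt : ∃ E ≤ K, Sq t E) {A : Subgroup G} (hAK : A ≤ K)
    (hA : IsElementaryAbelian r A) (hA1 : A ≠ ⊥) (hAn : K ≤ Subgroup.normalizer (A : Set G))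
    (hAQ : ∀ a ∈ A, ∀ y ∈ Q, Commute a y) : False := by
  obtain ⟨y₀, hy₀, hy₀1⟩ := (Subgroup.bot_or_exists_ne_one Q).resolve_left S.Q_ne_bot
  have hy₀o := ea_orderOf S.hq S.hQ hy₀ hy₀1
  obtain ⟨z, hzA, hz1⟩ := (Subgroup.bot_or_exists_ne_one A).resolve_left hA1
  have hz := ea_orderOf S.hr hA hzA hz1
  have hzK := hAK hzA
  have hzQ := hAQ z hzA
  have hzf := S.not_fx_of_cent (hKH hzK) hz hzQ
  have cycr : ∀ b ∈ K, orderOf b = r → Commute z b → (∀ y ∈ Q, Commute b y) →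
      b ∈ Subgroup.zpowers z := by
    intro b hbK hb hzb hbQ
    by_contra hbz
    have hle : Subgroup.zpowers z ⊔ Subgroup.zpowers b ≤ K :=
      sup_le (Subgroup.zpowers_le.2 hzK) (Subgroup.zpowers_le.2 hbK)
    obtain ⟨e, he, heo, hef⟩ := fx_sq S.hp S.hr S.rp S.hN S.hN1 (mk_sq S.hr hz hb hzb hbz)
      ((hle.trans hKH).trans S.HN)
    refine S.not_fx_of_cent (hKH (hle he)) heo (fun y hy => ?_) hef
    have h2 : Subgroup.zpowers z ⊔ Subgroup.zpowers b ≤ Subgroup.centralizer {y} :=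
      sup_le (Subgroup.zpowers_le.2 (centralizer_singleton_mem.2 (hzQ y hy).symm))
        (Subgroup.zpowers_le.2 (centralizer_singleton_mem.2 (hbQ y hy).symm))
    exact (centralizer_singleton_mem.1 (h2 he)).symm
  have hAz : A = Subgroup.zpowers z := le_antisymm (fun a ha => by
    rcases eq_or_ne a 1 with rfl | ha1
    · exact one_mem _
    · exact cycr a (hAK ha) (ea_orderOf S.hr hA ha ha1) (ea_comm hA hzA ha) (hAQ a ha))
    (Subgroup.zpowers_le.2 hzA)
  have hzn : K ≤ Subgroup.normalizer (Subgroup.zpowers z : Set G) := hAz ▸ hAn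
  have hmove : ∀ c ∈ K, orderOf c = t → ∃ y ∈ Q, ¬ Commute c y := by
    intro c hcK hc
    by_contra! hcQ
    have hcz : ¬ Commute c z := fun h =>
      S.qrt y₀ z c hy₀o hz hc (hzQ y₀ hy₀).symm (hcQ y₀ hy₀).symm h.symm
    have hall := frob_prime S.hN.1 hA.1 S.ht hc ((hAK.trans hKH).trans S.HN) (S.HN (hKH hcK))
      (hAn hcK) (fun a ha hca => by
        by_contra ha1
        exact hcz (commute_of_mem_zpowers hca.symm (mem_zpowers_of_prime S.hr hz (hAz ▸ ha) ha1)).symm)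
      (S.swap.not_fx_of_cent (hKH hcK) hc hcQ) (ea_coprime S.hr S.hp S.rp hA S.hN)
    obtain ⟨n, hn, hn1⟩ := (Subgroup.bot_or_exists_ne_one N).resolve_left S.hN1
    exact hzf ⟨n, hn, hn1, hall z hzA n hn⟩
  have hpair : ∀ b ∈ K, ∀ c ∈ K, orderOf b = r → orderOf c = t → Commute b c →
      b ∈ Subgroup.zpowers z := by
    intro b hbK c hcK hb hc hbc
    refine cycr b hbK hb (commute_of_normalizes S.hr hz (hzn hbK) (hb ▸ pow_orderOf_eq_one b)
      (coprime_sub_one_self S.hr)).symm ?_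
    rcases S.pair_cent (hKH hbK) (hKH hcK) hb hc hbc with h | h
    · exact h
    · obtain ⟨y, hy, hn⟩ := hmove c hcK hc
      exact absurd (h y hy) hn
  obtain ⟨D, hDK, hD⟩ := hEt
  have hzne : Subgroup.zpowers z ≠ ⊥ := Subgroup.zpowers_ne_bot.2 hz1
  obtain ⟨c, hcD, hc, w, hw, hw1, hcw⟩ := fx_sq S.hr S.ht S.rt.symm (ea_zpowers hz) hzne hD
    (hDK.trans hzn)
  have hcz : Commute c z :=
    (commute_of_mem_zpowers hcw.symm (mem_zpowers_of_prime S.hr hz hw hw1)).symm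
  have hcK := hDK hcD
  have hc1 : c ≠ 1 := fun h => S.ht.one_lt.ne (by rw [← hc, h, orderOf_one])
  have hDz : ¬ D ≤ Subgroup.centralizer {z} := by
    intro hle
    obtain ⟨e, he, heo, y, hy, hy1, hey⟩ := fx_sq S.hq S.ht S.qt.symm S.hQ S.Q_ne_bot hD
      ((hDK.trans hKH).trans S.HQ)
    exact S.qrt y z e (ea_orderOf S.hq S.hQ hy hy1) hz heo (hzQ y hy).symm hey.symm
      (centralizer_singleton_mem.1 (hle he))
  have hlt : t < r := by
    obtain ⟨e, he, hne⟩ := Set.not_subset.1 hDz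
    have he1 : e ≠ 1 := fun h => hne (h ▸ one_mem _)
    have hd := dvd_sub_one_of_not_commute S.hr S.ht hz (hzn (hDK he)) (ea_orderOf S.ht hD.1 he he1)
      (fun h => hne (centralizer_singleton_mem.2 h.symm))
    have := Nat.le_of_dvd (by have := S.hr.two_le; omega) hd
    have := S.hr.two_le
    omega
  have hVbot : core t K = ⊥ := by
    by_contra hV
    obtain ⟨s, hs, -, A', hA'V, hA'1, hA', hA'n⟩ := exists_ea (core_le t K) (norm_core t K) hV
    obtain ⟨a, ha, ha1⟩ := (Subgroup.bot_or_exists_ne_one A').resolve_left hA'1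
    obtain ⟨k, hk⟩ := core_orderOf S.ht (hA'V ha)
    rw [ea_orderOf hs hA' ha ha1] at hk
    have hst : s = t := (Nat.prime_dvd_prime_iff_eq hs S.ht).1 (hs.dvd_of_dvd_pow hk.dvd)
    subst hst
    have hA'K := hA'V.trans (core_le s K)
    haveI := Fact.mk S.hr
    haveI := Fact.mk hs
    have hcomm : ∀ a ∈ A', Commute z a := fun a ha =>
      commute_of_norm_disjoint (Subgroup.mem_zpowers z) ha (hA'n hzK) (hzn (hA'K ha))
        (IsPGroup.disjoint_of_ne r s S.rt _ _ (ea_pgroup (ea_zpowers hz)) (ea_pgroup hA'))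
    have hA'a : ∀ b ∈ A', b ∈ Subgroup.zpowers a := by
      intro b hb
      by_contra hba
      have hb1 : b ≠ 1 := fun h => hba (h ▸ one_mem _)
      have hle : Subgroup.zpowers a ⊔ Subgroup.zpowers b ≤ A' :=
        sup_le (Subgroup.zpowers_le.2 ha) (Subgroup.zpowers_le.2 hb)
      obtain ⟨e, he, heo, y, hy, hy1, hey⟩ := fx_sq S.hq hs S.qt.symm S.hQ S.Q_ne_bot
        (mk_sq hs (ea_orderOf hs hA' ha ha1) (ea_orderOf hs hA' hb hb1) (ea_comm hA' ha hb) hba)
        (((hle.trans hA'K).trans hKH).trans S.HQ)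
      exact S.qrt y z e (ea_orderOf S.hq S.hQ hy hy1) hz heo (hzQ y hy).symm hey.symm
        (hcomm e (hle he))
    have hA'eq : A' = Subgroup.zpowers a := le_antisymm hA'a (Subgroup.zpowers_le.2 ha)
    obtain ⟨E, hEK, hE⟩ := hEr
    obtain ⟨b, hbE, hbo, hbz⟩ := sq_exists_not_mem S.hr hE z
    exact hbz (hpair b (hEK hbE) a (hA'K ha) hbo (ea_orderOf hs hA' ha ha1)
      (commute_of_lt hs S.hr hlt.le (ea_orderOf hs hA' ha ha1) ((hA'eq ▸ hA'n) (hEK hbE)) hbo))
  haveI := hD.1.1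
  have hcU : ∀ u ∈ core r K, Commute c u := by
    haveI := Fact.mk S.hr
    haveI := Fact.mk S.ht
    have hj := Coprime.eq_centralizerJoin (N := core r K) (sq_not_cyclic S.ht hD)
      (hDK.trans (norm_core r K))
      (IsPGroup.coprime_card_of_ne t r S.rt.symm _ _ (ea_pgroup hD.1) (core_pgroup r K))
    have hle : core r K ≤ Subgroup.centralizer {c} := by
      refine hj ▸ iSup_le fun e u hu => ?_
      have heu : Commute (e : G) u := centralizer_singleton_mem.1 hu.2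
      rw [centralizer_singleton_mem]
      by_cases hez : Commute (e : G) z
      · have hm := sq_kernel S.ht hD hDz hcD hc1 (centralizer_singleton_mem.2 hcz.symm) e.2.1
          (centralizer_singleton_mem.2 hez.symm)
        exact commute_of_mem_zpowers heu (mem_zpowers_of_prime S.ht hc hm e.2.2)
      · rcases eq_or_ne u 1 with rfl | hu1
        · exact Commute.one_right c
        obtain ⟨m, hm⟩ := exists_pow_prime S.hr (core_orderOf S.hr hu.1) hu1
        have hd := hpair _ (K.pow_mem (core_le r K hu.1) m) e (hDK e.2.1) hm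
          (ea_orderOf S.ht hD.1 e.2.1 e.2.2) (heu.symm.pow_left m)
        have hum1 : u ^ m ≠ 1 := fun h => S.hr.one_lt.ne (by rw [← hm, h, orderOf_one])
        exact absurd (commute_of_mem_zpowers (heu.pow_right m).symm
          (Subgroup.zpowers_le.2 (mem_zpowers_of_prime S.hr hz hd hum1) (Subgroup.mem_zpowers z))).symm hez
    exact fun u hu => centralizer_singleton_mem.1 (hle hu)
  obtain ⟨u, hu, v, hv, e⟩ := mem_sup_core S.hr S.ht
    (fun l hl hlr hlt => core_eq_bot_of_not_dvd hl fun hd => (hKpr l hl hd).elim hlr hlt) hcK hcU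
    (fun v hv => by rw [hVbot, Subgroup.mem_bot] at hv; exact hv ▸ Commute.one_right c)
  rw [hVbot, Subgroup.mem_bot] at hv
  rw [hv, mul_one] at e
  obtain ⟨k, hk⟩ := core_orderOf S.hr hu
  rw [← e, hc] at hk
  exact S.rt ((Nat.prime_dvd_prime_iff_eq S.ht S.hr).1 (S.ht.dvd_of_dvd_pow hk.dvd)).symm

theorem contradiction' [Group.IsSolvable G] : False := by
  obtain ⟨K, hKH, hKπ, hK⟩ := exists_hall H ({r, t} : Set ℕ)
  obtain ⟨b, hb, c, hc, hbo, hco, hbc⟩ := S.Jrt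
  let L := Subgroup.zpowers b ⊔ Subgroup.zpowers c
  have hLpr : ∀ l, l.Prime → l ∣ Nat.card L → l ∈ ({r, t} : Set ℕ) := by
    intro l hl hd
    have hnn : Subgroup.zpowers c ≤ Subgroup.centralizer (Subgroup.zpowers b : Set G) := by
      rw [Subgroup.zpowers_le, Subgroup.mem_centralizer_iff]
      intro y hy
      obtain ⟨i, rfl⟩ := Subgroup.mem_zpowers_iff.1 hy
      exact (hbc.zpow_left i).eq
    haveI := Fact.mk hl
    obtain ⟨x, hx⟩ := exists_prime_orderOf_dvd_card' (G := L) l hd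
    have hxm := x.2
    simp only [L] at hxm
    rw [← SetLike.mem_coe, Subgroup.coe_mul_of_right_le_normalizer_left _ _
      (hnn.trans (Subgroup.centralizer_le_normalizer _))] at hxm
    obtain ⟨u, hu, v, hv, huv⟩ := hxm
    have huv' : Commute u v := Subgroup.mem_centralizer_iff.1 (hnn hv) u hu
    have h1 : u ^ (r * t) = 1 := by
      obtain ⟨i, rfl⟩ := exists_pow_eq hu
      rw [← pow_mul, mul_comm, pow_mul, pow_mul, show b ^ r = 1 from hbo ▸ pow_orderOf_eq_one b,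
        one_pow, one_pow]
    have h2 : v ^ (r * t) = 1 := by
      obtain ⟨i, rfl⟩ := exists_pow_eq hv
      rw [← pow_mul, mul_comm, mul_comm r t, pow_mul, pow_mul,
        show c ^ t = 1 from hco ▸ pow_orderOf_eq_one c, one_pow, one_pow]
    have h3 : l ∣ r * t := by
      rw [← hx, ← Subgroup.orderOf_coe, ← huv]
      exact orderOf_dvd_of_pow_eq_one (by rw [huv'.mul_pow, h1, h2, one_mul])
    rcases (Nat.Prime.dvd_mul hl).1 h3 with h | h
    · exact Or.inl ((Nat.prime_dvd_prime_iff_eq hl S.hr).1 h)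
    · exact Or.inr ((Nat.prime_dvd_prime_iff_eq hl S.ht).1 h)
  obtain ⟨h, -, hle⟩ := hK L (sup_le (Subgroup.zpowers_le.2 hb) (Subgroup.zpowers_le.2 hc)) hLpr
  set φ := MulAut.conj h
  have hbK : φ b ∈ K := hle ⟨b, Subgroup.mem_sup_left (Subgroup.mem_zpowers b), rfl⟩
  have hcK : φ c ∈ K := hle ⟨c, Subgroup.mem_sup_right (Subgroup.mem_zpowers c), rfl⟩
  set C := K ⊓ Subgroup.centralizer (Q : Set G) with hC
  have hn : K ≤ Subgroup.normalizer (C : Set G) := fun g hg => by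
    refine Coprime.mem_normalizer_of_conj_mem fun y hy =>
      ⟨K.mul_mem (K.mul_mem hg hy.1) (K.inv_mem hg), ?_⟩
    refine Subgroup.mem_centralizer_iff.2 fun n hn => ?_
    have h1 := Subgroup.mem_centralizer_iff.1 hy.2 _
      ((Subgroup.mem_normalizer_iff''.1 (S.HQ (hKH hg)) n).1 hn)
    calc n * (g * y * g⁻¹) = g * ((g⁻¹ * n * g) * y) * g⁻¹ := by group
      _ = g * (y * (g⁻¹ * n * g)) * g⁻¹ := by rw [h1]
      _ = _ := by group
  have hC1 : C ≠ ⊥ := by
    intro hbot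
    have key : ∀ x ∈ K, x ≠ 1 → ¬ ∀ y ∈ Q, Commute x y := fun x hx hx1 hxc =>
      hx1 (Subgroup.mem_bot.1 (hbot ▸ ⟨hx, Subgroup.mem_centralizer_iff.2 fun y hy => (hxc y hy).eq.symm⟩))
    have hφb : orderOf (φ b) = r := by rw [MulEquiv.orderOf_eq, hbo]
    have hφc : orderOf (φ c) = t := by rw [MulEquiv.orderOf_eq, hco]
    rcases S.pair_cent (hKH hbK) (hKH hcK) hφb hφc (hbc.map φ.toMonoidHom) with h' | h'
    · exact key _ hbK (fun e => S.hr.one_lt.ne (by rw [← hφb, e, orderOf_one])) h'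
    · exact key _ hcK (fun e => S.ht.one_lt.ne (by rw [← hφc, e, orderOf_one])) h'
  obtain ⟨s, hs, hd, A, hAC, hA1, hA, hAn⟩ := exists_ea (inf_le_left : C ≤ K) hn hC1
  have hAQ : ∀ a ∈ A, ∀ y ∈ Q, Commute a y := fun a ha y hy =>
    (Subgroup.mem_centralizer_iff.1 (hAC ha).2 y hy).symm
  have hEr := exists_sq_hall hK S.hr (Or.inl rfl) S.Er
  have hEt := exists_sq_hall hK S.ht (Or.inr rfl) S.Et
  rcases hKπ s hs hd with rfl | h'
  · exact S.contradiction_r hKH (fun l hl hd => hKπ l hl hd) hEr hEt (hAC.trans inf_le_left) hA hA1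
      hAn hAQ
  · rw [Set.mem_singleton_iff] at h'
    subst h'
    exact S.swap.contradiction_r hKH (fun l hl hd => (hKπ l hl hd).symm) hEt hEr
      (hAC.trans inf_le_left) hA hA1 hAn hAQ

end NoncycAct

end Cfsg.Agent.FourPrimes
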