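import Mathlib

/-! A Frobenius group acting coprimely on an abelian group. -/

set_option autoImplicit false

namespace Cfsg.Agent.FourPrimes

variable {G : Type*} [Group G]

/-- `x` fixes a nontrivial element of `N`. -/
def Fx (N : Subgroup G) (x : G) : Prop := ∃ n ∈ N, n ≠ 1 ∧ Commute x n

theorem eq_one_of_not_fx {N : Subgroup G} {x n : G} (h : ¬ Fx N x) (hn : n ∈ N) (hc : Commute x n) :
    n = 1 := by
  by_contra hne
  exact h ⟨n, hn, hne, hc⟩

theorem Fx.mono {N M : Subgroup G} {x : G} (h : Fx N x) (hle : N ≤ M) : Fx M x :=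
  let ⟨n, hn, h1, h2⟩ := h; ⟨n, hle hn, h1, h2⟩

theorem mem_zpowers_of_prime {c x : G} {t : ℕ} (ht : t.Prime) (hc : orderOf c = t)
    (hx : x ∈ Subgroup.zpowers c) (hx1 : x ≠ 1) : c ∈ Subgroup.zpowers x := by
  haveI : Finite (Subgroup.zpowers c) := Nat.finite_of_card_ne_zero (by
    rw [Nat.card_zpowers, hc]; exact ht.ne_zero)
  have hle : Subgroup.zpowers x ≤ Subgroup.zpowers c := Subgroup.zpowers_le.2 hx
  have hd := Subgroup.card_dvd_of_le hle
  rw [Nat.card_zpowers, Nat.card_zpowers, hc] at hd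
  rcases (Nat.dvd_prime ht).1 hd with h | h
  · exact absurd (orderOf_eq_one_iff.1 h) hx1
  · have := Subgroup.eq_of_le_of_card_ge hle (by rw [Nat.card_zpowers, Nat.card_zpowers, hc, h])
    rw [this]; exact Subgroup.mem_zpowers c

theorem commute_of_mem_zpowers {x a c : G} (h : Commute x a) (hc : c ∈ Subgroup.zpowers x) :
    Commute c a := by
  obtain ⟨i, rfl⟩ := Subgroup.mem_zpowers_iff.1 hc
  exact h.zpow_left i

theorem frob_abs {Γ : Type*} [Group Γ] [Finite Γ] {V : Type*} [CommGroup V] [Finite V]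
    (φ : Γ →* MulAut V) (A C : Subgroup Γ) (hAc : ∀ a ∈ A, ∀ b ∈ A, a * b = b * a)
    (hCA : ∀ x ∈ C, ∀ a ∈ A, x * a * x⁻¹ ∈ A)
    (hfp : ∀ x ∈ C, x ≠ 1 → ∀ a ∈ A, x * a = a * x → a = 1)
    (hC : ∀ v, (∀ x ∈ C, φ x v = v) → v = 1)
    (hcop : (Nat.card A).Coprime (Nat.card V)) : ∀ a ∈ A, ∀ v, φ a v = v := by
  classical
  haveI := Fintype.ofFinite A
  haveI := Fintype.ofFinite C
  intro a ha v
  set P : V → V := fun w => ∏ u : A, φ (u : Γ) w with hP
  have hR : ∀ m, ∏ x : C, φ (x : Γ) m = 1 := fun m => hC _ fun y hy => by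
    rw [map_prod]
    exact Fintype.prod_equiv (Equiv.mulLeft (⟨y, hy⟩ : C)) _ _ fun x => by
      simp [map_mul, MulAut.mul_apply]
  have h1 : ∀ u : A, ∏ x : C, φ ((u : Γ) * x * (u : Γ)⁻¹) v = 1 := by
    intro u
    have : ∀ x : C, φ ((u : Γ) * x * (u : Γ)⁻¹) v = φ (u : Γ) (φ (x : Γ) (φ (u : Γ)⁻¹ v)) := fun x => by
      simp only [map_mul, MulAut.mul_apply]
    rw [Finset.prod_congr rfl fun x _ => this x, ← map_prod, hR, map_one]
  have h2 : ∀ x : C, x ≠ 1 → ∏ u : A, φ ((u : Γ) * x * (u : Γ)⁻¹) v = φ (x : Γ) (P v) := by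
    intro x hx
    let g : A → A := fun u => ⟨(u : Γ) * ((x : Γ) * (u : Γ)⁻¹ * (x : Γ)⁻¹),
      A.mul_mem u.2 (hCA x x.2 _ (A.inv_mem u.2))⟩
    have hinj : Function.Injective g := by
      intro u w huw
      have e : (u : Γ) * (x : Γ) * (u : Γ)⁻¹ = w * (x : Γ) * (w : Γ)⁻¹ := by
        have := congrArg (fun y : A => (y : Γ) * x) huw
        simpa [g, mul_assoc] using this
      have e2 : (x : Γ) * ((w : Γ)⁻¹ * u)⁻¹ = ((w : Γ)⁻¹ * u)⁻¹ * x := by
        calc (x : Γ) * ((w : Γ)⁻¹ * u)⁻¹ = (u : Γ)⁻¹ * ((u : Γ) * x * (u : Γ)⁻¹) * w := by group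
          _ = (u : Γ)⁻¹ * ((w : Γ) * x * (w : Γ)⁻¹) * w := by rw [e]
          _ = _ := by group
      have h3 := hfp x x.2 (fun h => hx (Subtype.ext h)) _
        (A.inv_mem (A.mul_mem (A.inv_mem w.2) u.2)) e2
      rw [inv_eq_one, inv_mul_eq_one] at h3
      exact Subtype.ext h3.symm
    have hg : Function.Bijective g := Finite.injective_iff_bijective.1 hinj
    rw [hP, map_prod]
    calc ∏ u : A, φ ((u : Γ) * x * (u : Γ)⁻¹) v = ∏ u : A, φ (g u : Γ) (φ (x : Γ) v) :=
          Finset.prod_congr rfl fun u _ => by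
            rw [← MulAut.mul_apply, ← map_mul]
            congr 2
            simp [g, mul_assoc]
      _ = ∏ u : A, φ (u : Γ) (φ (x : Γ) v) :=
          Fintype.prod_bijective g hg _ _ fun u => rfl
      _ = ∏ u : A, φ (x : Γ) (φ (u : Γ) v) := by
          symm
          refine Fintype.prod_bijective (fun u : A => (⟨(x : Γ) * u * (x : Γ)⁻¹, hCA x x.2 u u.2⟩ : A)) ?_ _ _ ?_
          · refine Finite.injective_iff_bijective.1 fun u w h => Subtype.ext ?_
            have := congrArg Subtype.val h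
            simpa using this
          · intro u
            rw [← MulAut.mul_apply, ← map_mul, ← MulAut.mul_apply, ← map_mul]
            congr 2
            simp [mul_assoc]
  have hfixP : φ a (P v) = P v := by
    rw [hP, map_prod]
    exact Fintype.prod_equiv (Equiv.mulLeft (⟨a, ha⟩ : A)) _ _ fun u => by
      simp [map_mul, MulAut.mul_apply]
  have hsum : v ^ Nat.card A = P v := by
    have e1 : ∏ x : C, ∏ u : A, φ ((u : Γ) * x * (u : Γ)⁻¹) v = 1 := by
      rw [Finset.prod_comm]; exact Finset.prod_eq_one fun u _ => h1 u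
    have e2 := hR (P v)
    rw [← Finset.mul_prod_erase _ _ (Finset.mem_univ (1 : C))] at e1 e2
    rw [Finset.prod_congr rfl fun x hx => h2 x (Finset.mem_erase.1 hx).1] at e1
    have e3 : ∏ u : A, φ ((u : Γ) * (1 : C) * (u : Γ)⁻¹) v = v ^ Nat.card A := by
      simp [Nat.card_eq_fintype_card]
    rw [e3] at e1
    have e4 : φ ((1 : C) : Γ) (P v) = P v := by simp
    rw [e4] at e2
    exact mul_right_cancel (e1.trans e2.symm)
  have e5 : (φ a v) ^ Nat.card A = v ^ Nat.card A := by rw [← map_pow, hsum, hfixP]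
  exact (powCoprime hcop.symm).injective e5

/-- A group of fixed-point-free automorphisms `⟨c⟩` of the abelian group `A`: if `c` fixes no point
of `N`, then `A` centralises `N`. -/
theorem frob [Finite G] {N A : Subgroup G} (hNc : IsMulCommutative N) (hAc : IsMulCommutative A)
    {c : G} (hAN : A ≤ Subgroup.normalizer (N : Set G)) (hcN : c ∈ Subgroup.normalizer (N : Set G))
    (hcA : c ∈ Subgroup.normalizer (A : Set G))
    (hfp : ∀ x ∈ Subgroup.zpowers c, x ≠ 1 → ∀ a ∈ A, Commute x a → a = 1)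
    (hfix : ¬ Fx N c) (hcop : (Nat.card A).Coprime (Nat.card N)) :
    ∀ a ∈ A, ∀ n ∈ N, Commute a n := by
  letI : CommGroup N := { (inferInstance : Group N) with mul_comm := hNc.1.1 }
  let M : Subgroup G := Subgroup.normalizer (N : Set G)
  have key := frob_abs (Γ := M) (V := N) N.normalizerMonoidHom (A.subgroupOf M)
    ((Subgroup.zpowers c).subgroupOf M)
    (fun a ha b hb => Subtype.ext (congrArg Subtype.val (hAc.1.1 ⟨(a : G), ha⟩ ⟨(b : G), hb⟩) :))
    (fun x hx a ha => by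
      rw [Subgroup.mem_subgroupOf] at hx ha ⊢
      exact (Subgroup.mem_normalizer_iff.1 ((Subgroup.zpowers_le.2 hcA) hx) _).1 ha)
    (fun x hx hx1 a ha e => Subtype.ext (hfp _ hx (fun h => hx1 (Subtype.ext h)) _ ha
      (congrArg Subtype.val e)))
    (fun v hv => Subtype.ext (eq_one_of_not_fx hfix v.2 (by
      have := congrArg Subtype.val (hv ⟨c, hcN⟩ (Subgroup.mem_zpowers c))
      exact mul_inv_eq_iff_eq_mul.1 this)))
    (by rwa [Nat.card_congr (Subgroup.subgroupOfEquivOfLe hAN).toEquiv])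
  intro a ha n hn
  have := congrArg Subtype.val (key ⟨a, hAN ha⟩ ha ⟨n, hn⟩)
  exact mul_inv_eq_iff_eq_mul.1 this

theorem frob_prime [Finite G] {N A : Subgroup G} (hNc : IsMulCommutative N) (hAc : IsMulCommutative A)
    {c : G} {t : ℕ} (ht : t.Prime) (hc : orderOf c = t)
    (hAN : A ≤ Subgroup.normalizer (N : Set G)) (hcN : c ∈ Subgroup.normalizer (N : Set G))
    (hcA : c ∈ Subgroup.normalizer (A : Set G)) (hfp : ∀ a ∈ A, Commute c a → a = 1)
    (hfix : ¬ Fx N c) (hcop : (Nat.card A).Coprime (Nat.card N)) :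
    ∀ a ∈ A, ∀ n ∈ N, Commute a n :=
  frob hNc hAc hAN hcN hcA (fun _ hx hx1 a ha e =>
    hfp a ha (commute_of_mem_zpowers e (mem_zpowers_of_prime ht hc hx hx1))) hfix hcop

end Cfsg.Agent.FourPrimes
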