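import Cfsg.Agent.FourPrimes.Main

/-! Lucido's three primes lemma and noncyclic Sylow subgroups. -/

set_option autoImplicit false
set_option linter.unusedSectionVars false
set_option linter.style.haveILetI false

namespace Cfsg.Agent.FourPrimes

open Cfsg Cfsg.Agent

variable {G : Type*} [Group G] [Finite G]

/-- Some two of three primes are joined. -/
def Joined (C : Subgroup G) (S : Set ℕ) : Prop :=
  ∃ x ∈ C, ∃ y ∈ C, ∃ u ∈ S, ∃ v ∈ S, u ≠ v ∧ orderOf x = u ∧ orderOf y = v ∧ Commute x y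

theorem zpowers_primes {x : G} {s : ℕ} (hs : s.Prime) (hx : orderOf x = s) :
    ∀ l, l.Prime → l ∣ Nat.card (Subgroup.zpowers x) → l = s := fun l hl hd => by
  rw [Nat.card_zpowers, hx] at hd
  exact (Nat.prime_dvd_prime_iff_eq hl hs).1 hd

theorem three_aux [Group.IsSolvable G] {C K A B : Subgroup G} {s u v : ℕ} (hs : s.Prime)
    (hu : u.Prime) (hv : v.Prime) (hsu : s ≠ u) (hsv : s ≠ v) (huv : u ≠ v) {S : Set ℕ}
    (hsS : s ∈ S) (huS : u ∈ S) (hvS : v ∈ S) (hKC : K ≤ C) (hAC : A ≤ C) (hBK : B ≤ K)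
    (hA : IsElementaryAbelian s A) (hA1 : A ≠ ⊥) (hKA : K ≤ Subgroup.normalizer (A : Set G))
    (hB : IsElementaryAbelian u B) (hB1 : B ≠ ⊥) (hKB : K ≤ Subgroup.normalizer (B : Set G))
    {c : G} (hcK : c ∈ K) (hc : orderOf c = v) : Joined C S := by
  by_cases h1 : ∃ b ∈ B, b ≠ 1 ∧ Commute c b
  · obtain ⟨b, hb, hb1, hcb⟩ := h1
    exact ⟨b, hKC (hBK hb), c, hKC hcK, u, huS, v, hvS, huv, ea_orderOf hu hB hb hb1, hc, hcb.symm⟩
  push Not at h1
  by_cases h2 : Fx A c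
  · obtain ⟨n, hn, hn1, hcn⟩ := h2
    exact ⟨n, hAC hn, c, hKC hcK, s, hsS, v, hvS, hsv, ea_orderOf hs hA hn hn1, hc, hcn.symm⟩
  have hall := frob_prime hA.1 hB.1 hv hc (hBK.trans hKA) (hKA hcK) (hKB hcK)
    (fun b hb hcb => by_contra fun hb1 => h1 b hb hb1 hcb) h2 (ea_coprime hu hs hsu.symm hB hA)
  obtain ⟨b, hb, hb1⟩ := (Subgroup.bot_or_exists_ne_one B).resolve_left hB1
  obtain ⟨a, ha, ha1⟩ := (Subgroup.bot_or_exists_ne_one A).resolve_left hA1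
  exact ⟨b, hKC (hBK hb), a, hAC ha, u, huS, s, hsS, hsu.symm, ea_orderOf hu hB hb hb1,
    ea_orderOf hs hA ha ha1, hall b hb a ha⟩

theorem three_step [Group.IsSolvable G] {C H A : Subgroup G} {s u v : ℕ} (hs : s.Prime)
    (hu : u.Prime) (hv : v.Prime) (hsu : s ≠ u) (hsv : s ≠ v) (huv : u ≠ v) {S : Set ℕ}
    (hsS : s ∈ S) (huS : u ∈ S) (hvS : v ∈ S) (hHC : H ≤ C) (hAH : A ≤ H)
    (hA : IsElementaryAbelian s A) (hA1 : A ≠ ⊥) (hHA : H ≤ Subgroup.normalizer (A : Set G))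
    (eu : ∃ a ∈ H, orderOf a = u) (ev : ∃ a ∈ H, orderOf a = v) : Joined C S := by
  obtain ⟨K, hKH, hKπ, hK⟩ := exists_hall H ({u, v} : Set ℕ)
  have mv : ∀ l, l.Prime → l ∈ ({u, v} : Set ℕ) → (∃ a ∈ H, orderOf a = l) → ∃ a ∈ K, orderOf a = l := by
    rintro l hl hlm ⟨a, ha, hao⟩
    obtain ⟨h, -, hle⟩ := hK (Subgroup.zpowers a) (Subgroup.zpowers_le.2 ha)
      fun m hm hd => zpowers_primes hl hao m hm hd ▸ hlm
    exact ⟨MulAut.conj h a, hle ⟨a, Subgroup.mem_zpowers a, rfl⟩, by rw [MulEquiv.orderOf_eq, hao]⟩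
  obtain ⟨b, hbK, hbo⟩ := mv u hu (Or.inl rfl) eu
  obtain ⟨c, hcK, hco⟩ := mv v hv (Or.inr rfl) ev
  have hK1 : K ≠ ⊥ := fun h => hu.one_lt.ne (by
    rw [h, Subgroup.mem_bot] at hbK
    rw [← hbo, hbK, orderOf_one])
  obtain ⟨w, hw, hd, B, hBK, hB1, hB, hKB⟩ := exists_ea le_rfl Subgroup.le_normalizer hK1
  rcases hKπ w hw hd with rfl | h'
  · exact three_aux hs hw hv hsu hsv huv hsS huS hvS (hKH.trans hHC) (hAH.trans hHC) hBK hA hA1
      (hKH.trans hHA) hB hB1 hKB hcK hco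
  · rw [Set.mem_singleton_iff] at h'
    subst h'
    exact three_aux hs hw hu hsv hsu huv.symm hsS hvS huS (hKH.trans hHC) (hAH.trans hHC) hBK hA hA1
      (hKH.trans hHA) hB hB1 hKB hbK hbo

/-- **Lucido's lemma.** -/
theorem three [Group.IsSolvable G] (C : Subgroup G) {q r t : ℕ} (hq : q.Prime) (hr : r.Prime)
    (ht : t.Prime) (hqr : q ≠ r) (hqt : q ≠ t) (hrt : r ≠ t) (eq : ∃ a ∈ C, orderOf a = q)
    (er : ∃ a ∈ C, orderOf a = r) (et : ∃ a ∈ C, orderOf a = t) : Joined C {q, r, t} := by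
  obtain ⟨H, hHC, hHπ, hH⟩ := exists_hall C ({q, r, t} : Set ℕ)
  have mv : ∀ l, l.Prime → l ∈ ({q, r, t} : Set ℕ) → (∃ a ∈ C, orderOf a = l) →
      ∃ a ∈ H, orderOf a = l := by
    rintro l hl hlm ⟨a, ha, hao⟩
    obtain ⟨h, -, hle⟩ := hH (Subgroup.zpowers a) (Subgroup.zpowers_le.2 ha)
      fun m hm hd => zpowers_primes hl hao m hm hd ▸ hlm
    exact ⟨MulAut.conj h a, hle ⟨a, Subgroup.mem_zpowers a, rfl⟩, by rw [MulEquiv.orderOf_eq, hao]⟩
  have eq' := mv q hq (Or.inl rfl) eq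
  have er' := mv r hr (Or.inr (Or.inl rfl)) er
  have et' := mv t ht (Or.inr (Or.inr rfl)) et
  have hH1 : H ≠ ⊥ := by
    obtain ⟨a, ha, hao⟩ := eq'
    rintro rfl
    rw [Subgroup.mem_bot] at ha
    exact hq.one_lt.ne (by rw [← hao, ha, orderOf_one])
  obtain ⟨s, hs, hd, A, hAH, hA1, hA, hHA⟩ := exists_ea le_rfl Subgroup.le_normalizer hH1
  rcases hHπ s hs hd with rfl | rfl | h'
  · exact three_step hs hr ht hqr hqt hrt (Or.inl rfl) (Or.inr (Or.inl rfl)) (Or.inr (Or.inr rfl))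
      hHC hAH hA hA1 hHA er' et'
  · exact three_step hs hq ht hqr.symm hrt hqt (Or.inr (Or.inl rfl)) (Or.inl rfl)
      (Or.inr (Or.inr rfl)) hHC hAH hA hA1 hHA eq' et'
  · rw [Set.mem_singleton_iff] at h'
    subst h'
    exact three_step hs hq hr hqt.symm hrt.symm hqr (Or.inr (Or.inr rfl)) (Or.inl rfl)
      (Or.inr (Or.inl rfl)) hHC hAH hA hA1 hHA eq' er'

/-- If `s` is joined to three primes but lies in no triangle, a Sylow `s`-subgroup is noncyclic. -/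
theorem exists_sq [Group.IsSolvable G] {s q r t : ℕ} (hs : s.Prime) (hq : q.Prime) (hr : r.Prime)
    (ht : t.Prime) (hqr : q ≠ r) (hqt : q ≠ t) (hrt : r ≠ t)
    (hj : ∀ l ∈ ({q, r, t} : Set ℕ), ∃ x y : G, orderOf x = s ∧ orderOf y = l ∧ Commute x y)
    (hT : ∀ u ∈ ({q, r, t} : Set ℕ), ∀ v ∈ ({q, r, t} : Set ℕ), u ≠ v → Tri G s u v) :
    ∃ E : Subgroup G, Sq s E := by
  by_contra hcon
  haveI := Fact.mk hs
  obtain ⟨P⟩ : Nonempty (Sylow s G) := inferInstance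
  obtain ⟨x₀, y₀, hx₀, -⟩ := hj q (Or.inl rfl)
  have hdvd : s ∣ Nat.card G := hx₀ ▸ orderOf_dvd_natCard x₀
  haveI : Nontrivial (P : Subgroup G) :=
    (Subgroup.nontrivial_iff_ne_bot _).2 (Sylow.ne_bot_of_dvd_card P hdvd)
  haveI := P.2.center_nontrivial (G := (P : Subgroup G))
  obtain ⟨z', hz'⟩ := exists_prime_orderOf_dvd_card' (G := Subgroup.center (P : Subgroup G)) s (by
    obtain ⟨k, hk, hk'⟩ := (P.2.to_subgroup (Subgroup.center (P : Subgroup G))).nontrivial_iff_card.1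
      inferInstance
    rw [hk']; exact dvd_pow_self s hk.ne')
  set z : G := ((z' : (P : Subgroup G)) : G) with hzdef
  have hz : orderOf z = s := by rw [hzdef, Subgroup.orderOf_coe, Subgroup.orderOf_coe, hz']
  have hin : ∀ x ∈ (P : Subgroup G), orderOf x = s → x ∈ Subgroup.zpowers z := by
    intro x hx hxo
    by_contra hxz
    exact hcon ⟨_, mk_sq hs hz hxo
      (congrArg Subtype.val (Subgroup.mem_center_iff.1 z'.2 ⟨x, hx⟩)).symm hxz⟩
  have hC : ∀ l ∈ ({q, r, t} : Set ℕ), ∃ a ∈ Subgroup.centralizer ({z} : Set G), orderOf a = l := by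
    intro l hl
    obtain ⟨x, y, hx, hy, hxy⟩ := hj l hl
    obtain ⟨P', hP'⟩ := (IsPGroup.of_card (n := 1) (by rw [pow_one, Nat.card_zpowers, hx]) :
      IsPGroup s (Subgroup.zpowers x)).exists_le_sylow
    obtain ⟨h, hh⟩ := MulAction.exists_smul_eq G P' P
    have hxP : MulAut.conj h x ∈ (P : Subgroup G) := by
      rw [← hh, Sylow.coe_subgroup_smul]
      exact Subgroup.smul_mem_pointwise_smul _ (MulAut.conj h) _ (hP' (Subgroup.mem_zpowers x))
    have hxo : orderOf (MulAut.conj h x) = s := by rw [MulEquiv.orderOf_eq, hx]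
    have hzm := mem_zpowers_of_prime hs hz (hin _ hxP hxo)
      (fun e => hs.one_lt.ne (by rw [← hxo, e, orderOf_one]))
    exact ⟨MulAut.conj h y, centralizer_singleton_mem.2
      (commute_of_mem_zpowers (hxy.map (MulAut.conj h).toMonoidHom) hzm),
      by rw [MulEquiv.orderOf_eq, hy]⟩
  obtain ⟨x, hx, y, hy, u, hu, v, hv, huv, hxu, hyv, hxy⟩ := three _ hq hr ht hqr hqt hrt
    (hC q (Or.inl rfl)) (hC r (Or.inr (Or.inl rfl))) (hC t (Or.inr (Or.inr rfl)))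
  exact hT u hu v hv huv z x y hz hxu hyv (centralizer_singleton_mem.1 hx)
    (centralizer_singleton_mem.1 hy) hxy

end Cfsg.Agent.FourPrimes
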