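import Cfsg.Agent.FourPrimes.Faithful

/-! No `{q, r, t}`-group acts on `N` without triples. -/

set_option autoImplicit false
set_option linter.unusedSectionVars false
set_option linter.style.haveILetI false

namespace Cfsg.Agent.FourPrimes

open Cfsg Cfsg.Agent

variable {G : Type*} [Group G] [Finite G]

theorem le_core {s : ℕ} {A H : Subgroup G} (hAH : A ≤ H) (hA : IsPGroup s A)
    (hn : H ≤ Subgroup.normalizer (A : Set G)) : A ≤ core s H := by
  have h := Core.le_pCore (p := s) ((Subgroup.normal_subgroupOf_iff_le_normalizer hAH).2 hn)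
    (hA.of_equiv (Subgroup.subgroupOfEquivOfLe hAH).symm)
  intro a ha
  exact ⟨⟨a, hAH ha⟩, h ha, rfl⟩

namespace Act

variable {p q r t : ℕ} {N H : Subgroup G} (S : Act p q r t N H)
include S

theorem pair_false [Group.IsSolvable G] {N₀ Q₀ : Subgroup G} (hN₀ : N₀ ≤ N) (hN₀1 : N₀ ≠ ⊥)
    (hQ₀H : Q₀ ≤ H) (hQ₀ : IsElementaryAbelian q Q₀) (hQ₀1 : Q₀ ≠ ⊥)
    (hnN : H ≤ Subgroup.normalizer (N₀ : Set G)) (hnQ : H ≤ Subgroup.normalizer (Q₀ : Set G))
    (hc : ∀ n ∈ N₀, ∀ y ∈ Q₀, Commute n y) : False := by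
  obtain ⟨K, hKH, hKπ, hK⟩ := exists_hall H ({r, t} : Set ℕ)
  exact Pair.contradiction' (p := p) (q := q) (r := r) (t := t) (N := N₀) (Q := Q₀) (K := K)
    ⟨S.hp, S.hq, S.hr, S.ht, S.rp, S.tp, S.qr.symm, S.qt.symm, S.rt, ea_le S.hN hN₀, hQ₀, hN₀1,
      hQ₀1, hKH.trans hnN, hKH.trans hnQ, hc, fun l hl hd => hKπ l hl hd, S.pqr, S.pqt, S.prt,
      S.qrt, exists_sq_hall hK S.hr (Or.inl rfl) S.Er, exists_sq_hall hK S.ht (Or.inr rfl) S.Et⟩

theorem eq_one_of_cent [Group.IsSolvable G] {A : Subgroup G} (hAH : A ≤ H)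
    (hA : IsElementaryAbelian q A) (hn : H ≤ Subgroup.normalizer (A : Set G)) {a : G} (ha : a ∈ A)
    (hc : ∀ n ∈ N, Commute a n) : a = 1 := by
  by_contra ha1
  let A₀ := A ⊓ Subgroup.centralizer (N : Set G)
  have haA : a ∈ A₀ := ⟨ha, Subgroup.mem_centralizer_iff.2 fun n hn => (hc n hn).eq.symm⟩
  refine S.pair_false le_rfl S.hN1 (inf_le_left.trans hAH) (ea_le hA inf_le_left)
    (fun h => ha1 (Subgroup.mem_bot.1 (h ▸ haA))) S.HN (fun g hg => ?_)
    fun n hn y hy => Subgroup.mem_centralizer_iff.1 hy.2 n hn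
  refine Coprime.mem_normalizer_of_conj_mem fun y hy =>
    ⟨(Subgroup.mem_normalizer_iff.1 (hn hg) y).1 hy.1, Subgroup.mem_centralizer_iff.2 fun n hn => ?_⟩
  have h1 := Subgroup.mem_centralizer_iff.1 hy.2 _
    ((Subgroup.mem_normalizer_iff''.1 (S.HN hg) n).1 hn)
  calc n * (g * y * g⁻¹) = g * ((g⁻¹ * n * g) * y) * g⁻¹ := by group
    _ = g * (y * (g⁻¹ * n * g)) * g⁻¹ := by rw [h1]
    _ = _ := by group

theorem nc [Group.IsSolvable G] : NC H q := by
  intro A hAH hA hn a ha ha1 b hb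
  by_contra hba
  exact NoncycAct.contradiction' (Q := A)
    ⟨S, hAH, hA, hn, fun y hy hc => S.eq_one_of_cent hAH hA hn hy hc, a, ha, ha1, b, hb, hba⟩

theorem not_fx [Group.IsSolvable G] {z : G} (hzH : z ∈ H) (hz : orderOf z = q)
    (hn : H ≤ Subgroup.normalizer (Subgroup.zpowers z : Set G)) : ¬ Fx N z := by
  intro hf
  have hz1 : z ≠ 1 := fun h => S.hq.one_lt.ne (by rw [← hz, h, orderOf_one])
  refine S.pair_false (N₀ := N ⊓ Subgroup.centralizer {z}) inf_le_left hf.sub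
    (Subgroup.zpowers_le.2 hzH) (ea_zpowers hz) (Subgroup.zpowers_ne_bot.2 hz1) (fun g hg => ?_) hn
    fun n hn y hy => (commute_of_mem_zpowers (centralizer_singleton_mem.1 hn.2) hy).symm
  refine Coprime.mem_normalizer_of_conj_mem fun n hn' =>
    ⟨(Subgroup.mem_normalizer_iff.1 (S.HN hg) n).1 hn'.1, centralizer_singleton_mem.2 ?_⟩
  have h2 : g⁻¹ * z * g ∈ Subgroup.zpowers z :=
    (Subgroup.mem_normalizer_iff''.1 (hn hg) z).1 (Subgroup.mem_zpowers z)
  have h3 : Commute (g⁻¹ * z * g) n :=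
    commute_of_mem_zpowers (centralizer_singleton_mem.1 hn'.2) h2
  show z * (g * n * g⁻¹) = g * n * g⁻¹ * z
  calc z * (g * n * g⁻¹) = g * ((g⁻¹ * z * g) * n) * g⁻¹ := by group
    _ = g * (n * (g⁻¹ * z * g)) * g⁻¹ := by rw [h3.eq]
    _ = _ := by group

/-- A commuting `E` of order `q²` and `c` of order `t` with a fixed point give a triple. -/
theorem sq_fixed_false {E : Subgroup G} (hEH : E ≤ H) (hE : Sq q E) {c : G} (hc : orderOf c = t)
    (hcom : ∀ e ∈ E, Commute c e) (hf : Fx N c) : False := by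
  obtain ⟨e, he, heo, n, hn, hn1, hen⟩ := fx_sq S.hp S.hq S.qp (ea_le S.hN inf_le_left) hf.sub hE
    (fun e he => norm_centralizer (S.HN (hEH he)) (hcom e he).symm)
  exact S.pqt n e c (ea_orderOf S.hp S.hN hn.1 hn1) heo hc hen.symm
    (centralizer_singleton_mem.1 hn.2).symm (hcom e he).symm

/-- An element of order `q` fixing a point of `N` commutes with no element moving `z`. -/
theorem moved_false [Group.IsSolvable G] {z d e : G} (hzH : z ∈ H) (hz : orderOf z = q)
    (hzn : H ≤ Subgroup.normalizer (Subgroup.zpowers z : Set G)) (heH : e ∈ H)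
    (he : orderOf e = t) (hez : ¬ Commute e z) (hdH : d ∈ H) {s : ℕ} (hd : orderOf d = s)
    (hT : Tri G p s t) (hdz : Commute d z) (hde : Commute d e) (hf : Fx N d) : False := by
  set W := N ⊓ Subgroup.centralizer {d} with hW
  have hall := frob_prime (ea_le S.hN (inf_le_left : W ≤ N)).1 (ea_zpowers hz).1 S.ht he
    (Subgroup.zpowers_le.2 (norm_centralizer (S.HN hzH) hdz.symm))
    (norm_centralizer (S.HN heH) hde.symm) (hzn heH)
    (fun a ha hea => by
      by_contra ha1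
      exact hez (commute_of_mem_zpowers hea.symm (mem_zpowers_of_prime S.hq hz ha ha1)).symm)
    (by
      rintro ⟨n, hn, hn1, hen⟩
      exact hT n d e (ea_orderOf S.hp S.hN hn.1 hn1) hd he
        (centralizer_singleton_mem.1 hn.2).symm hen.symm hde)
    (ea_coprime S.hq S.hp S.qp (ea_zpowers hz) (ea_le S.hN inf_le_left))
  obtain ⟨n, hn, hn1⟩ := (Subgroup.bot_or_exists_ne_one W).resolve_left hf.sub
  exact S.not_fx hzH hz hzn ⟨n, hn.1, hn1, hall z (Subgroup.mem_zpowers z) n hn⟩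

/-- The element of order `t` centralising `z` centralises `O_q(H)`. -/
theorem kill [Group.IsSolvable G] {z : G} (hzU : z ∈ core q H) (hz : orderOf z = q)
    (hzc : ∀ u ∈ core q H, Commute z u)
    (hzn : H ≤ Subgroup.normalizer (Subgroup.zpowers z : Set G))
    (hcen : ∀ x ∈ core q H, x ^ q = 1 → (∀ u ∈ core q H, Commute x u) → x ∈ Subgroup.zpowers z)
    {D : Subgroup G} (hDH : D ≤ H) (hD : Sq t D) (hDz : ¬ D ≤ Subgroup.centralizer {z}) {c : G}
    (hcD : c ∈ D) (hc : orderOf c = t) (hcz : Commute c z) (hcf : Fx N c) :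
    q ≠ 2 ∧ (∀ x ∈ core q H, orderOf x = q → x ∈ Subgroup.zpowers z) ∧
      ∀ u ∈ core q H, Commute c u := by
  have hzH := core_le q H hzU
  have hc1 : c ≠ 1 := fun h => S.ht.one_lt.ne (by rw [← hc, h, orderOf_one])
  have hzf := S.not_fx hzH hz hzn
  have hq2 : q ≠ 2 := by
    obtain ⟨e, he, hne⟩ := Set.not_subset.1 hDz
    have he1 : e ≠ 1 := fun h => hne (h ▸ one_mem _)
    have hd := dvd_sub_one_of_not_commute S.hq S.ht hz (hzn (hDH he)) (ea_orderOf S.ht hD.1 he he1)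
      (fun h => hne (centralizer_singleton_mem.2 h.symm))
    rintro rfl
    exact S.ht.one_lt.ne' (Nat.dvd_one.1 hd)
  have huniq : ∀ x ∈ core q H, orderOf x = q → x ∈ Subgroup.zpowers z := by
    by_contra! hcon
    obtain ⟨x₀, hx₀, hx₀o, hx₀z⟩ := hcon
    obtain ⟨b, hb, hbo, hbz, hbc⟩ :=
      exists_second S.hq hq2 (core_pgroup q H) hz hzU hzc hcen hx₀ hx₀o hx₀z
    let X : Subgroup G :=
      { carrier := {x | x ∈ core q H ∧ ∀ g ∈ core q H, g * x * g⁻¹ * x⁻¹ ∈ Subgroup.zpowers z}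
        one_mem' := ⟨one_mem _, fun g _ => by simp⟩
        mul_mem' := by
          rintro x y ⟨hx, hx'⟩ ⟨hy, hy'⟩
          refine ⟨mul_mem hx hy, fun g hg => ?_⟩
          have h1 : x * (g * y * g⁻¹ * y⁻¹) * x⁻¹ = g * y * g⁻¹ * y⁻¹ :=
            mul_inv_eq_iff_eq_mul.2
              (commute_of_mem_zpowers (hzc x hx) (hy' g hg)).eq.symm
          have e : g * (x * y) * g⁻¹ * (x * y)⁻¹
              = (g * x * g⁻¹ * x⁻¹) * (x * (g * y * g⁻¹ * y⁻¹) * x⁻¹) := by group
          rw [e, h1]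
          exact mul_mem (hx' g hg) (hy' g hg)
        inv_mem' := by
          rintro x ⟨hx, hx'⟩
          refine ⟨inv_mem hx, fun g hg => ?_⟩
          have h1 : x⁻¹ * (g * x * g⁻¹ * x⁻¹)⁻¹ = (g * x * g⁻¹ * x⁻¹)⁻¹ * x⁻¹ :=
            (commute_of_mem_zpowers (hzc x hx) (hx' g hg)).inv_inv.eq.symm
          have e : g * x⁻¹ * g⁻¹ * x⁻¹⁻¹ = x⁻¹ * (g * x * g⁻¹ * x⁻¹)⁻¹ * x := by group
          rw [e, h1, mul_assoc, inv_mul_cancel, mul_one]
          exact inv_mem (hx' g hg) }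
    have hXn : H ≤ Subgroup.normalizer (X : Set G) := by
      intro h hh
      have hU := norm_core q H hh
      refine Coprime.mem_normalizer_of_conj_mem fun x hx =>
        ⟨(Subgroup.mem_normalizer_iff.1 hU x).1 hx.1, fun g hg => ?_⟩
      have h1 := (Subgroup.mem_normalizer_iff.1 (hzn hh) _).1
        (hx.2 _ ((Subgroup.mem_normalizer_iff''.1 hU g).1 hg))
      convert h1 using 1
      group
    have hXU : X ≤ core q H := fun x hx => hx.1
    haveI := hD.1.1
    haveI := Fact.mk S.hq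
    haveI := Fact.mk S.ht
    have hj := Coprime.eq_centralizerJoin (N := X) (sq_not_cyclic S.ht hD) (hDH.trans hXn)
      (IsPGroup.coprime_card_of_ne t q S.qt.symm _ _ (ea_pgroup hD.1) ((core_pgroup q H).to_le hXU))
    have hle : X ≤ Subgroup.centralizer {c} := by
      refine hj ▸ iSup_le fun e u hu => ?_
      have heu : Commute (e : G) u := centralizer_singleton_mem.1 hu.2
      rw [centralizer_singleton_mem]
      by_cases hez : Commute (e : G) z
      · have hm := sq_kernel S.ht hD hDz hcD hc1 (centralizer_singleton_mem.2 hcz.symm) e.2.1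
          (centralizer_singleton_mem.2 hez.symm)
        exact commute_of_mem_zpowers heu (mem_zpowers_of_prime S.ht hc hm e.2.2)
      · rcases eq_or_ne u 1 with rfl | hu1
        · exact Commute.one_right c
        obtain ⟨m, hm⟩ := exists_pow_prime S.hq (core_orderOf S.hq hu.1.1) hu1
        have hdX : u ^ m ∈ X := X.pow_mem hu.1 m
        have hum1 : u ^ m ≠ 1 := fun h => S.hq.one_lt.ne (by rw [← hm, h, orderOf_one])
        have hdz : u ^ m ∉ Subgroup.zpowers z := fun hd =>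
          hez (commute_of_mem_zpowers (heu.pow_right m).symm
            (mem_zpowers_of_prime S.hq hz hd hum1)).symm
        obtain ⟨g, hg, j, hj, hgd⟩ := exists_conj_of_comm hz hzU hcen hdX.1
          (hm ▸ pow_orderOf_eq_one _) hdz hzc hdX.2
        exact (S.moved_false hzH hz hzn (hDH e.2.1) (ea_orderOf S.ht hD.1 e.2.1 e.2.2) hez
          (core_le q H hdX.1) hm S.pqt (hzc _ hdX.1).symm (heu.symm.pow_left m)
          (conj_fx S.hp S.hq S.qp S.hN S.hN1 hz hm (hzc _ hdX.1) hdz (hzc g hg).symm hgd hj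
            (S.HN hzH) (S.HN (core_le q H hdX.1)) (S.HN (core_le q H hg)) hzf)).elim
    have hcb : Commute c b := centralizer_singleton_mem.1 (hle ⟨hb, hbc⟩)
    have hsq := mk_sq S.hq hz hbo (hzc b hb) hbz
    refine S.sq_fixed_false (sup_le (Subgroup.zpowers_le.2 hzH)
      (Subgroup.zpowers_le.2 (core_le q H hb))) hsq hc (fun e he => ?_) hcf
    have h2 : Subgroup.zpowers z ⊔ Subgroup.zpowers b ≤ Subgroup.centralizer {c} :=
      sup_le (Subgroup.zpowers_le.2 (centralizer_singleton_mem.2 hcz))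
        (Subgroup.zpowers_le.2 (centralizer_singleton_mem.2 hcb))
    exact centralizer_singleton_mem.1 (h2 he)
  refine ⟨hq2, huniq, core_fixed S.hq hq2 S.ht S.qt.symm hc (hDH hcD) fun x hx hxo => ?_⟩
  exact (commute_of_mem_zpowers hcz.symm (huniq x hx hxo)).symm

/-- `O_q(H)` is not the whole Fitting subgroup, when `A` is an `r`-subgroup. -/
theorem single [Group.IsSolvable G] (honly : ∀ l, l.Prime → l ≠ q → core l H = ⊥) {z : G}
    (hzU : z ∈ core q H) (hz : orderOf z = q) (hzc : ∀ u ∈ core q H, Commute z u)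
    (hzn : H ≤ Subgroup.normalizer (Subgroup.zpowers z : Set G))
    (hcen : ∀ x ∈ core q H, x ^ q = 1 → (∀ u ∈ core q H, Commute x u) → x ∈ Subgroup.zpowers z)
    {K : Subgroup G} (hKH : K ≤ H) (hEt : ∃ E ≤ K, Sq t E) {A : Subgroup G} (hAK : A ≤ K)
    (hA : IsElementaryAbelian r A) (hA1 : A ≠ ⊥) (hAn : K ≤ Subgroup.normalizer (A : Set G))
    (hAz : ∀ a ∈ A, Commute a z) : False := by
  have hzH := core_le q H hzU
  obtain ⟨D, hDK, hD⟩ := hEt
  obtain ⟨e, heD, he, a, ha, ha1, hea⟩ := fx_sq S.hr S.ht S.rt.symm hA hA1 hD (hDK.trans hAn)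
  have hao := ea_orderOf S.hr hA ha ha1
  have hez : ¬ Commute e z := fun h => S.qrt z a e hz hao he (hAz a ha).symm h.symm hea.symm
  have hDz : ¬ D ≤ Subgroup.centralizer {z} := fun h =>
    hez (centralizer_singleton_mem.1 (h heD)).symm
  have hz1 : z ≠ 1 := fun h => S.hq.one_lt.ne (by rw [← hz, h, orderOf_one])
  obtain ⟨c, hcD, hc, w, hw, hw1, hcw⟩ := fx_sq S.hq S.ht S.qt.symm (ea_zpowers hz)
    (Subgroup.zpowers_ne_bot.2 hz1) hD ((hDK.trans hKH).trans hzn)
  have hcz : Commute c z :=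
    (commute_of_mem_zpowers hcw.symm (mem_zpowers_of_prime S.hq hz hw hw1)).symm
  have hcH := hKH (hDK hcD)
  have hcf : Fx N c := by
    by_contra hf
    have hall := frob_prime S.hN.1 hA.1 S.ht hc ((hAK.trans hKH).trans S.HN) (S.HN hcH)
      (hAn (hDK hcD)) (fun b hb hcb => by
        by_contra hb1
        exact S.qrt z b c hz (ea_orderOf S.hr hA hb hb1) hc (hAz b hb).symm hcz.symm hcb.symm)
      hf (ea_coprime S.hr S.hp S.rp hA S.hN)
    obtain ⟨n, hn, hn1⟩ := (Subgroup.bot_or_exists_ne_one N).resolve_left S.hN1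
    exact S.moved_false hzH hz hzn (hKH (hDK heD)) he hez (hKH (hAK ha)) hao S.prt (hAz a ha)
      hea.symm ⟨n, hn, hn1, hall a ha n hn⟩
  obtain ⟨-, -, hcU⟩ := S.kill hzU hz hzc hzn hcen (hDK.trans hKH) hD hDz hcD hc hcz hcf
  obtain ⟨u, hu, v, hv, e'⟩ := mem_sup_core S.hq S.ht (fun l hl hlq _ => honly l hl hlq) hcH hcU
    (fun v hv => by rw [honly t S.ht S.qt.symm, Subgroup.mem_bot] at hv; exact hv ▸ Commute.one_right c)
  rw [honly t S.ht S.qt.symm, Subgroup.mem_bot] at hv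
  rw [hv, mul_one] at e'
  obtain ⟨k, hk⟩ := core_orderOf S.hq hu
  rw [← e', hc] at hk
  exact S.qt ((Nat.prime_dvd_prime_iff_eq S.ht S.hq).1 (S.ht.dvd_of_dvd_pow hk.dvd)).symm

theorem core_single [Group.IsSolvable G] (honly : ∀ l, l.Prime → l ≠ q → core l H = ⊥)
    (hne : core q H ≠ ⊥) : False := by
  obtain ⟨z, hzU, hz, hzc, hzn, hcen⟩ := exists_z S.hq hne S.nc
  obtain ⟨K, hKH, hKπ, hK⟩ := exists_hall H ({r, t} : Set ℕ)
  have hz1 : z ≠ 1 := fun h => S.hq.one_lt.ne (by rw [← hz, h, orderOf_one])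
  have hEr := exists_sq_hall hK S.hr (Or.inl rfl) S.Er
  have hEt := exists_sq_hall hK S.ht (Or.inr rfl) S.Et
  obtain ⟨D, hDK, hD⟩ := hEt
  obtain ⟨c, hcD, hc, w, hw, hw1, hcw⟩ := fx_sq S.hq S.ht S.qt.symm (ea_zpowers hz)
    (Subgroup.zpowers_ne_bot.2 hz1) hD ((hDK.trans hKH).trans hzn)
  set C := K ⊓ Subgroup.centralizer {z} with hC
  have hn : K ≤ Subgroup.normalizer (C : Set G) := fun g hg => by
    refine Coprime.mem_normalizer_of_conj_mem fun y hy =>
      ⟨K.mul_mem (K.mul_mem hg hy.1) (K.inv_mem hg), centralizer_singleton_mem.2 ?_⟩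
    have h2 : g⁻¹ * z * g ∈ Subgroup.zpowers z :=
      (Subgroup.mem_normalizer_iff''.1 (hzn (hKH hg)) z).1 (Subgroup.mem_zpowers z)
    have h3 : Commute (g⁻¹ * z * g) y :=
      commute_of_mem_zpowers (centralizer_singleton_mem.1 hy.2) h2
    show z * (g * y * g⁻¹) = g * y * g⁻¹ * z
    calc z * (g * y * g⁻¹) = g * ((g⁻¹ * z * g) * y) * g⁻¹ := by group
      _ = g * (y * (g⁻¹ * z * g)) * g⁻¹ := by rw [h3.eq]
      _ = _ := by group
  have hcC : c ∈ C := ⟨hDK hcD, centralizer_singleton_mem.2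
    (commute_of_mem_zpowers hcw.symm (mem_zpowers_of_prime S.hq hz hw hw1))⟩
  obtain ⟨s, hs, hd, A, hAC, hA1, hA, hAn⟩ := exists_ea (inf_le_left : C ≤ K) hn
    (fun h => by
      rw [hC] at hcC
      rw [h, Subgroup.mem_bot] at hcC
      exact S.ht.one_lt.ne (by rw [← hc, hcC, orderOf_one]))
  have hAz : ∀ a ∈ A, Commute a z := fun a ha => (centralizer_singleton_mem.1 (hAC ha).2).symm
  rcases hKπ s hs hd with rfl | h'
  · exact S.single honly hzU hz hzc hzn hcen hKH ⟨D, hDK, hD⟩ (hAC.trans inf_le_left) hA hA1 hAn hAz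
  · rw [Set.mem_singleton_iff] at h'
    subst h'
    exact S.swap23.single honly hzU hz hzc hzn hcen hKH hEr (hAC.trans inf_le_left) hA hA1 hAn hAz

theorem core_two_lt [Group.IsSolvable G] (honly : ∀ l, l.Prime → l ≠ q → l ≠ r → core l H = ⊥)
    (hq0 : core q H ≠ ⊥) (hr0 : core r H ≠ ⊥) (hlt : r < q) : False := by
  obtain ⟨z, hzU, hz, hzc, hzn, hcen⟩ := exists_z S.hq hq0 S.nc
  obtain ⟨y, hyU, hy, hyc, hyn, hyen⟩ := exists_z S.hr hr0 S.swap12.nc
  have hzy : Commute z y := core_commute S.hq S.hr S.qr hzU hyU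
  have hzH := core_le q H hzU
  have hyH := core_le r H hyU
  have hz1 : z ≠ 1 := fun h => S.hq.one_lt.ne (by rw [← hz, h, orderOf_one])
  have hy1 : y ≠ 1 := fun h => S.hr.one_lt.ne (by rw [← hy, h, orderOf_one])
  obtain ⟨D, hDH, hD⟩ := S.Et
  obtain ⟨c, hcD, hc, w, hw, hw1, hcw⟩ := fx_sq S.hq S.ht S.qt.symm (ea_zpowers hz)
    (Subgroup.zpowers_ne_bot.2 hz1) hD (hDH.trans hzn)
  have hcz : Commute c z :=
    (commute_of_mem_zpowers hcw.symm (mem_zpowers_of_prime S.hq hz hw hw1)).symm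
  obtain ⟨d, hdD, hd, v, hv, hv1, hdv⟩ := fx_sq S.hr S.ht S.rt.symm (ea_zpowers hy)
    (Subgroup.zpowers_ne_bot.2 hy1) hD (hDH.trans hyn)
  have hdy : Commute d y :=
    (commute_of_mem_zpowers hdv.symm (mem_zpowers_of_prime S.hr hy hv hv1)).symm
  have hcy : ¬ Commute c y := fun h => S.qrt z y c hz hy hc hzy hcz.symm h.symm
  have hdz : ¬ Commute d z := fun h => S.qrt z y d hz hy hd hzy h.symm hdy.symm
  have hDz : ¬ D ≤ Subgroup.centralizer {z} := fun h =>
    hdz (centralizer_singleton_mem.1 (h hdD)).symm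
  have hDy : ¬ D ≤ Subgroup.centralizer {y} := fun h =>
    hcy (centralizer_singleton_mem.1 (h hcD)).symm
  have hzf := S.not_fx hzH hz hzn
  have hyf := S.swap12.not_fx hyH hy hyn
  obtain ⟨n, hn, hn1⟩ := (Subgroup.bot_or_exists_ne_one N).resolve_left S.hN1
  have hcf : Fx N c := by
    by_contra hf
    exact hyf ⟨n, hn, hn1, frob_prime S.hN.1 (ea_zpowers hy).1 S.ht hc
      ((Subgroup.zpowers_le.2 hyH).trans S.HN) (S.HN (hDH hcD)) (hyn (hDH hcD))
      (fun a ha hca => by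
        by_contra ha1
        exact hcy (commute_of_mem_zpowers hca.symm (mem_zpowers_of_prime S.hr hy ha ha1)).symm)
      hf (ea_coprime S.hr S.hp S.rp (ea_zpowers hy) S.hN) y (Subgroup.mem_zpowers y) n hn⟩
  have hdf : Fx N d := by
    by_contra hf
    exact hzf ⟨n, hn, hn1, frob_prime S.hN.1 (ea_zpowers hz).1 S.ht hd
      ((Subgroup.zpowers_le.2 hzH).trans S.HN) (S.HN (hDH hdD)) (hzn (hDH hdD))
      (fun a ha hca => by
        by_contra ha1
        exact hdz (commute_of_mem_zpowers hca.symm (mem_zpowers_of_prime S.hq hz ha ha1)).symm)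
      hf (ea_coprime S.hq S.hp S.qp (ea_zpowers hz) S.hN) z (Subgroup.mem_zpowers z) n hn⟩
  obtain ⟨-, -, hcU⟩ := S.kill hzU hz hzc hzn hcen hDH hD hDz hcD hc hcz hcf
  obtain ⟨hr2, huy, -⟩ := S.swap12.kill hyU hy hyc hyn hyen hDH hD hDy hdD hd hdy hdf
  obtain ⟨E, hEH, hE⟩ := S.Eq
  obtain ⟨b, hbE, hbo, hbz⟩ := sq_exists_not_mem S.hq hE z
  have hbH := hEH hbE
  have hbz' : Commute b z := commute_of_normalizes S.hq hz (hzn hbH) (hbo ▸ pow_orderOf_eq_one b)
    (coprime_sub_one_self S.hq)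
  have hby : Commute b y := commute_of_lt S.hr S.hq hlt.le hy (hyn hbH) hbo
  have hbV : ∀ x ∈ core r H, Commute b x := core_fixed S.hr hr2 S.hq S.qr hbo hbH fun x hx hxo =>
    (commute_of_mem_zpowers hby.symm (huy x hx hxo)).symm
  have hbc : Commute b c :=
    commute_of_cores S.hq S.hr S.ht S.qr S.qt honly hbH (hDH hcD) hbo hc hbV hcU
  refine S.sq_fixed_false (sup_le (Subgroup.zpowers_le.2 hzH) (Subgroup.zpowers_le.2 hbH))
    (mk_sq S.hq hz hbo hbz'.symm hbz) hc (fun e he => ?_) hcf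
  have h2 : Subgroup.zpowers z ⊔ Subgroup.zpowers b ≤ Subgroup.centralizer {c} :=
    sup_le (Subgroup.zpowers_le.2 (centralizer_singleton_mem.2 hcz))
      (Subgroup.zpowers_le.2 (centralizer_singleton_mem.2 hbc.symm))
  exact centralizer_singleton_mem.1 (h2 he)

theorem core_two [Group.IsSolvable G] (honly : ∀ l, l.Prime → l ≠ q → l ≠ r → core l H = ⊥)
    (hq0 : core q H ≠ ⊥) (hr0 : core r H ≠ ⊥) : False := by
  rcases Nat.lt_or_gt_of_ne S.qr with h | h
  · exact S.swap12.core_two_lt (fun l hl h1 h2 => honly l hl h2 h1) hr0 hq0 h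
  · exact S.core_two_lt honly hq0 hr0 h

theorem contradiction' [Group.IsSolvable G] : False := by
  have other : ∀ l, l.Prime → l ≠ q → l ≠ r → l ≠ t → core l H = ⊥ := fun l hl h1 h2 h3 =>
    core_eq_bot_of_not_dvd hl fun hd => by have := S.Hpr l hl hd; tauto
  by_cases hq0 : core q H = ⊥ <;> by_cases hr0 : core r H = ⊥ <;> by_cases ht0 : core t H = ⊥
  · obtain ⟨E, hEH, hE⟩ := S.Eq
    have hH : H ≠ ⊥ := by
      rintro rfl
      have := Subgroup.card_dvd_of_le hEH
      rw [hE.2, Subgroup.card_bot, Nat.dvd_one] at this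
      nlinarith [S.hq.two_le]
    obtain ⟨s, hs, hd, A, hAH, hA1, hA, hAn⟩ := exists_ea le_rfl (Subgroup.le_normalizer) hH
    have := le_core hAH (ea_pgroup hA) hAn
    rcases S.Hpr s hs hd with rfl | rfl | rfl
    · exact hA1 (le_bot_iff.1 (hq0 ▸ this))
    · exact hA1 (le_bot_iff.1 (hr0 ▸ this))
    · exact hA1 (le_bot_iff.1 (ht0 ▸ this))
  · exact S.swap23.swap12.core_single (fun l hl h => by
      rcases eq_or_ne l q with rfl | h1; · exact hq0
      rcases eq_or_ne l r with rfl | h2; · exact hr0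
      exact other l hl h1 h2 h) ht0
  · exact S.swap12.core_single (fun l hl h => by
      rcases eq_or_ne l q with rfl | h1; · exact hq0
      rcases eq_or_ne l t with rfl | h2; · exact ht0
      exact other l hl h1 h h2) hr0
  · exact S.swap12.swap23.core_two (fun l hl h1 h2 => by
      rcases eq_or_ne l q with rfl | h3; · exact hq0
      exact other l hl h3 h1 h2) hr0 ht0
  · exact S.core_single (fun l hl h => by
      rcases eq_or_ne l r with rfl | h1; · exact hr0
      rcases eq_or_ne l t with rfl | h2; · exact ht0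
      exact other l hl h h1 h2) hq0
  · exact S.swap23.core_two (fun l hl h1 h2 => by
      rcases eq_or_ne l r with rfl | h3; · exact hr0
      exact other l hl h1 h3 h2) hq0 ht0
  · exact S.core_two (fun l hl h1 h2 => by
      rcases eq_or_ne l t with rfl | h3; · exact ht0
      exact other l hl h1 h2 h3) hq0 hr0
  · obtain ⟨a, ha, hao, -⟩ := exists_z S.hq hq0 S.nc
    obtain ⟨b, hb, hbo, -⟩ := exists_z S.hr hr0 S.swap12.nc
    obtain ⟨c, hc, hco, -⟩ := exists_z S.ht ht0 S.swap23.swap12.nc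
    exact S.qrt a b c hao hbo hco (core_commute S.hq S.hr S.qr ha hb)
      (core_commute S.hq S.ht S.qt ha hc) (core_commute S.hr S.ht S.rt hb hc)

end Act

end Cfsg.Agent.FourPrimes
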